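import Cfsg.Agent.Q4.KFix

set_option autoImplicit false
set_option linter.unusedSectionVars false

namespace Cfsg.Agent.Q4

open Subgroup

variable {G : Type*} [Group G] [Finite G] {Ω : Type*} [Fintype Ω] [DecidableEq Ω] [MulAction G Ω]
variable {N N' U V E H T M A B L Q Q' R : Subgroup G} {Γ Δ Δ' S F : Set Ω} {g s t u w y z : G}
variable {x x' a b c d : Ω} {k l p q i n κ : ℕ}

theorem des_fib {α β : Type*} [DecidableEq β] (s : Finset α) (f : α → β) (m : ℕ)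
    (h : ∀ a ∈ s, (s.filter fun b => f b = f a).card = m) : m ∣ s.card := by
  rw [Finset.card_eq_sum_card_image f s]
  refine Finset.dvd_sum fun b hb => ?_
  obtain ⟨a, ha, rfl⟩ := Finset.mem_image.1 hb
  rw [h a ha]

theorem des_off (X : Set Ω) [Fintype X] : (X.toFinset.offDiag).card = X.ncard * (X.ncard - 1) := by
  rw [Finset.offDiag_card, Set.ncard_eq_toFinset_card', Nat.mul_sub_one]

theorem des_sub4 (ha : a ∈ Γ) (hb : b ∈ Γ) (hc : c ∈ Γ) (hd : d ∈ Γ) : ({a, b, c, d} : Set Ω) ⊆ Γ := by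
  intro v hv
  simp only [Set.mem_insert_iff, Set.mem_singleton_iff] at hv
  rcases hv with rfl | rfl | rfl | rfl <;> assumption

theorem des_d4 {v v' : Ω} (hx : x ∉ F) (hx' : x' ∉ F) (e : x ≠ x') (hv : v ∈ F) (hv' : v' ∈ F) (e' : v ≠ v') :
    D4 x x' v v' :=
  ⟨e, fun h => hx (h ▸ hv), fun h => hx (h ▸ hv'), fun h => hx' (h ▸ hv), fun h => hx' (h ▸ hv'), e'⟩

/-- two points of `F` in a block through `x, x'` determine it -/
theorem des_pair {Bl : Set Ω → Set Ω} (h : Des Γ Bl k) (hΔ : Δ ⊆ Γ) (h4 : Δ.ncard = 4) (m : x ∈ Δ) (m' : x' ∈ Δ)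
    {v v' : Ω} (hd : D4 x x' v v') (hv : v ∈ Bl Δ) (hv' : v' ∈ Bl Δ) : Bl {x, x', v, v'} = Bl Δ :=
  h.uniq Δ hΔ h4 _ (des_sub4 (h.sub Δ hΔ h4 m) (h.sub Δ hΔ h4 m') hv hv') hd.ncard

theorem Des.sts {Bl : Set Ω → Set Ω} (h : Des Γ Bl k) (hF : F ⊆ Γ) (hx : x ∈ Γ \ F) (hx' : x' ∈ Γ \ F)
    (e : x ≠ x') (h3 : ∀ v ∈ F, ∀ v' ∈ F, v ≠ v' → (Bl {x, x', v, v'} ∩ F).ncard = 3) :
    3 ∣ F.ncard * (F.ncard - 1) := by
  classical
  rw [← des_off]
  refine Dvd.dvd.trans (by norm_num : 3 ∣ 6) ?_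
  refine des_fib _ (fun p : Ω × Ω => Bl {x, x', p.1, p.2}) 6 ?_
  rintro ⟨v, v'⟩ hp
  simp only [Finset.mem_offDiag, Set.mem_toFinset] at hp
  obtain ⟨hv, hv', e'⟩ := hp
  have hd := des_d4 hx.2 hx'.2 e hv hv' e'
  have hs := des_sub4 hx.1 hx'.1 (hF hv) (hF hv')
  have key : (F.toFinset.offDiag.filter fun p : Ω × Ω => Bl {x, x', p.1, p.2} = Bl {x, x', v, v'}) =
      (Bl {x, x', v, v'} ∩ F).toFinset.offDiag := by
    ext ⟨o, o'⟩
    simp only [Finset.mem_filter, Finset.mem_offDiag, Set.mem_toFinset, Set.mem_inter_iff]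
    constructor
    · rintro ⟨⟨ho, ho', eo⟩, hb⟩
      have hd' := des_d4 hx.2 hx'.2 e ho ho' eo
      have := h.sub _ (des_sub4 hx.1 hx'.1 (hF ho) (hF ho')) hd'.ncard
      rw [hb] at this
      exact ⟨⟨this (by simp), ho⟩, ⟨this (by simp), ho'⟩, eo⟩
    · rintro ⟨⟨m, ho⟩, ⟨m', ho'⟩, eo⟩
      exact ⟨⟨ho, ho', eo⟩, des_pair h hs hd.ncard (by simp) (by simp) (des_d4 hx.2 hx'.2 e ho ho' eo) m m'⟩
  rw [key, des_off, h3 v hv v' hv' e']

theorem Des.dvd {Bl : Set Ω → Set Ω} (h : Des Γ Bl k) (h4 : 4 ≤ Γ.ncard) : k - 3 ∣ Γ.ncard - 3 := by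
  classical
  obtain ⟨S, hS, h3⟩ := Set.exists_subset_card_eq (by omega : 3 ≤ Γ.ncard)
  have hc : ∀ X : Set Ω, S ⊆ X → (X \ S).toFinset.card = X.ncard - 3 := fun X hX => by
    rw [← Set.ncard_eq_toFinset_card', Set.ncard_sdiff hX (Set.toFinite _), h3]
  have i4 : ∀ v, v ∉ S → (insert v S).ncard = 4 := fun v hv => by
    rw [Set.ncard_insert_of_notMem hv (Set.toFinite _), h3]
  rw [← hc Γ hS]
  refine des_fib _ (fun v => Bl (insert v S)) _ ?_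
  intro v hv
  rw [Set.mem_toFinset] at hv
  have hs : insert v S ⊆ Γ := Set.insert_subset hv.1 hS
  have hSB : S ⊆ Bl (insert v S) := (Set.subset_insert _ _).trans (h.sub _ hs (i4 v hv.2))
  have key : ((Γ \ S).toFinset.filter fun o => Bl (insert o S) = Bl (insert v S)) =
      (Bl (insert v S) \ S).toFinset := by
    ext o
    simp only [Finset.mem_filter, Set.mem_toFinset, Set.mem_sdiff]
    constructor
    · rintro ⟨⟨ho, ho'⟩, hb⟩
      have := h.sub _ (Set.insert_subset ho hS) (i4 o ho')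
      rw [hb] at this
      exact ⟨this (Set.mem_insert _ _), ho'⟩
    · rintro ⟨m, ho'⟩
      exact ⟨⟨h.le _ hs (i4 v hv.2) m, ho'⟩,
        h.uniq _ hs (i4 v hv.2) _ (Set.insert_subset m hSB) (i4 o ho')⟩
  rw [key, hc _ hSB, h.card _ hs (i4 v hv.2)]

theorem Des.cnt {Bl : Set Ω → Set Ω} {τ : Ω → Ω} (h : Des Γ Bl (l + 4)) (hF : F ⊆ Γ) (hx : x ∈ Γ \ F)
    (hτ : ∀ v ∈ Γ \ F, τ v ∈ Γ \ F ∧ τ (τ v) = v ∧ τ v ≠ v)
    (h1 : ∀ v ∈ F, ∀ v' ∈ F, v ≠ v' → (Bl {x, τ x, v, v'} ∩ F).ncard = l ∧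
      ∀ o ∈ Bl {x, τ x, v, v'} \ F, τ o ∈ Bl {x, τ x, v, v'})
    (h2 : ∀ o ∈ Γ \ F, o ≠ x → o ≠ τ x → (Bl {x, τ x, o, τ o} ∩ F).ncard = l) :
    F.ncard * (F.ncard - 1) * 2 = l * (l - 1) * (Γ.ncard - F.ncard - 2) := by
  classical
  obtain ⟨hx', hxx, ex⟩ := hτ x hx
  have e : x ≠ τ x := ex.symm
  have hc : ∀ X : Set Ω, x ∈ X → τ x ∈ X → ((X \ F) \ {x, τ x}).toFinset.card = X.ncard - (X ∩ F).ncard - 2 := by
    intro X m m'
    have hs : ({x, τ x} : Set Ω) ⊆ X \ F := by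
      intro v hv
      simp only [Set.mem_insert_iff, Set.mem_singleton_iff] at hv
      rcases hv with rfl | rfl
      · exact ⟨m, hx.2⟩
      · exact ⟨m', hx'.2⟩
    rw [← Set.ncard_eq_toFinset_card', Set.ncard_sdiff hs (Set.toFinite _), Set.ncard_pair e,
      ← Set.sdiff_self_inter, Set.ncard_sdiff Set.inter_subset_left (Set.toFinite _)]
  have hΓ := hc Γ hx.1 hx'.1
  rw [Set.inter_eq_right.2 hF] at hΓ
  rw [← des_off, ← hΓ, mul_comm (l * (l - 1))]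
  refine Finset.card_mul_eq_card_mul (fun (p : Ω × Ω) (o : Ω) => o ∈ Bl {x, τ x, p.1, p.2}) ?_ ?_
  · rintro ⟨v, v'⟩ hp
    simp only [Finset.mem_offDiag, Set.mem_toFinset] at hp
    obtain ⟨hv, hv', e'⟩ := hp
    have hd := des_d4 hx.2 hx'.2 e hv hv' e'
    have hs := des_sub4 hx.1 hx'.1 (hF hv) (hF hv')
    have hb := h.sub _ hs hd.ncard
    have key : Finset.bipartiteAbove (fun (p : Ω × Ω) (o : Ω) => o ∈ Bl {x, τ x, p.1, p.2})
        ((Γ \ F) \ {x, τ x}).toFinset (v, v') = ((Bl {x, τ x, v, v'} \ F) \ {x, τ x}).toFinset := by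
      ext o
      simp only [Finset.mem_bipartiteAbove, Set.mem_toFinset, Set.mem_sdiff]
      constructor
      · rintro ⟨⟨⟨_, a2⟩, a3⟩, a4⟩
        exact ⟨⟨a4, a2⟩, a3⟩
      · rintro ⟨⟨a4, a2⟩, a3⟩
        exact ⟨⟨⟨h.le _ hs hd.ncard a4, a2⟩, a3⟩, a4⟩
    rw [key, hc _ (hb (by simp)) (hb (by simp)), h.card _ hs hd.ncard, (h1 v hv v' hv' e').1]
    omega
  · intro o ho
    simp only [Set.mem_toFinset, Set.mem_sdiff, Set.mem_insert_iff, Set.mem_singleton_iff, not_or] at ho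
    obtain ⟨ho, e1, e2⟩ := ho
    obtain ⟨ho', hoo, eo⟩ := hτ o ho
    have hd : D4 x (τ x) o (τ o) :=
      ⟨e, Ne.symm e1, fun h => e2 (by rw [h, hoo]), Ne.symm e2, fun h => e1 (by rw [← hoo, ← h, hxx]), eo.symm⟩
    have hs := des_sub4 hx.1 hx'.1 ho.1 ho'.1
    have key : Finset.bipartiteBelow (fun (p : Ω × Ω) (o : Ω) => o ∈ Bl {x, τ x, p.1, p.2})
        F.toFinset.offDiag o = (Bl {x, τ x, o, τ o} ∩ F).toFinset.offDiag := by
      ext ⟨v, v'⟩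
      simp only [Finset.mem_bipartiteBelow, Finset.mem_offDiag, Set.mem_toFinset, Set.mem_inter_iff]
      constructor
      · rintro ⟨⟨hv, hv', e'⟩, m⟩
        have hd' := des_d4 hx.2 hx'.2 e hv hv' e'
        have hs' := des_sub4 hx.1 hx'.1 (hF hv) (hF hv')
        have hb := h.sub _ hs' hd'.ncard
        have := des_pair h hs' hd'.ncard (by simp) (by simp) hd m ((h1 v hv v' hv' e').2 o ⟨m, ho.2⟩)
        rw [this]
        exact ⟨⟨hb (by simp), hv⟩, ⟨hb (by simp), hv'⟩, e'⟩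
      · rintro ⟨⟨m, hv⟩, ⟨m', hv'⟩, e'⟩
        refine ⟨⟨hv, hv', e'⟩, ?_⟩
        rw [des_pair h hs hd.ncard (by simp) (by simp) (des_d4 hx.2 hx'.2 e hv hv' e') m m']
        exact h.sub _ hs hd.ncard (by simp)
    rw [key, des_off, h2 o ho e1 e2]

end Cfsg.Agent.Q4
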