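import Cfsg.Agent.Q4.KFix

set_option autoImplicit false
set_option linter.unusedSectionVars false

namespace Cfsg.Agent.Q4

open Subgroup

variable {G : Type*} [Group G] [Finite G] {Ω : Type*} [Fintype Ω] [DecidableEq Ω] [MulAction G Ω]
variable {N N' U V E H T M A B L Q Q' R : Subgroup G} {Γ Δ Δ' S F : Set Ω} {g s t u w y z : G}
variable {x x' a b c d : Ω} {k l p q i n κ : ℕ}

namespace Des3A

/-- a point together with a `y`-orbit -/
def D (y : G) (o v : Ω) : Set Ω := {v, o, y • o, y • y • o}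

theorem y3 (hy : y ^ 3 = 1) (o : Ω) : y • y • y • o = o := by
  rw [← mul_smul, ← mul_smul, show y * y * y = y ^ 3 by rw [pow_succ, pow_two], hy, one_smul]

theorem nf1 {o : Ω} (ho : o ∉ fx Ω y) : y • o ∉ fx Ω y := fun e =>
  ho (smul_left_cancel y e)

theorem D_card (hy : y ^ 3 = 1) {o v : Ω} (ho : o ∉ fx Ω y) (hv : v ∈ fx Ω y) :
    (D y o v).ncard = 4 := by
  have h1 := nf1 ho
  have h2 := nf1 h1
  refine D4.ncard ⟨?_, ?_, ?_, ?_, ?_, ?_⟩
  · rintro rfl; exact ho hv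
  · rintro rfl; exact h1 hv
  · rintro rfl; exact h2 hv
  · intro e; exact ho e.symm
  · intro e
    apply ho
    have := y3 hy o
    rw [← e] at this
    exact this
  · intro e; exact h1 e.symm

theorem D_ss (hy : y ^ 3 = 1) {o v : Ω} (hv : v ∈ fx Ω y) : y ∈ Ss G (D y o v) := by
  apply mem_Ss_of
  intro x hx
  simp only [D, Set.mem_insert_iff, Set.mem_singleton_iff] at hx ⊢
  rcases hx with rfl | rfl | rfl | rfl
  · exact Or.inl hv
  · exact Or.inr (Or.inr (Or.inl rfl))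
  · exact Or.inr (Or.inr (Or.inr rfl))
  · exact Or.inr (Or.inl (y3 hy o))

theorem D_sub {X : Set Ω} {o v : Ω} (hX : y ∈ Ss G X) (ho : o ∈ X) (hv : v ∈ X) : D y o v ⊆ X := by
  intro x hx
  simp only [D, Set.mem_insert_iff, Set.mem_singleton_iff] at hx
  rcases hx with rfl | rfl | rfl | rfl
  · exact hv
  · exact ho
  · exact (hX o).2 ho
  · exact (hX _).2 ((hX o).2 ho)

theorem trace {Bl : Set Ω → Set Ω} (h : Des Set.univ Bl 8) (hy : y ^ 3 = 1)
    (hi : ∀ Δ : Set Ω, Δ.ncard = 4 → y ∈ Ss G Δ → y ∈ Ss G (Bl Δ))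
    {o v : Ω} (ho : o ∉ fx Ω y) (hv : v ∈ fx Ω y) :
    (Bl (D y o v) ∩ fx Ω y).ncard = 2 ∨ (Bl (D y o v) ∩ fx Ω y).ncard = 5 := by
  have hc := D_card hy ho hv
  have hs := hi _ hc (D_ss hy hv)
  have h8 := h.card _ (Set.subset_univ _) hc
  have hm := fx_mod (Γ := Bl (D y o v)) (g := y) (i := 1) Nat.prime_three
    (fun x hx => (hs x).2 hx) (fun x _ => by rw [pow_one, hy, one_smul])
  have hlt : (Bl (D y o v) ∩ fx Ω y).ncard < (Bl (D y o v)).ncard := by
    apply Set.ncard_lt_ncard _ (Set.toFinite _)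
    refine ⟨Set.inter_subset_left, fun e => ho (e (h.sub _ (Set.subset_univ _) hc ?_)).2⟩
    simp [D]
  rw [h8] at hm hlt
  unfold Nat.ModEq at hm
  omega

theorem uniq5 {Bl : Set Ω → Set Ω} (h : Des Set.univ Bl 8) (hy : y ^ 3 = 1)
    (hj : (fx Ω y).ncard = 5 ∨ (fx Ω y).ncard = 11)
    (hi : ∀ Δ : Set Ω, Δ.ncard = 4 → y ∈ Ss G Δ → y ∈ Ss G (Bl Δ))
    {o : Ω} (ho : o ∉ fx Ω y) :
    ∃ v ∈ fx Ω y, (Bl (D y o v) ∩ fx Ω y).ncard = 5 ∧
      ∀ w ∈ fx Ω y, (Bl (D y o w) ∩ fx Ω y).ncard = 5 → Bl (D y o w) = Bl (D y o v) := by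
  classical
  set F' : Finset Ω := (fx Ω y).toFinset with hF'
  have hmF : ∀ v, v ∈ F' ↔ v ∈ fx Ω y := fun v => Set.mem_toFinset
  have hcF : F'.card = (fx Ω y).ncard := (Set.ncard_eq_toFinset_card' _).symm
  set f : Ω → Set Ω := fun v => Bl (D y o v) with hf
  have hsum := Finset.card_eq_sum_card_image f F'
  have hfib : ∀ v ∈ fx Ω y, (F'.filter (fun a => f a = f v)).card = (f v ∩ fx Ω y).ncard := by
    intro v hv
    rw [← Set.ncard_coe_finset]
    congr 1
    ext a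
    simp only [Finset.coe_filter, Set.mem_ofPred_eq, Set.mem_inter_iff, hmF]
    have hc := D_card hy ho hv
    constructor
    · rintro ⟨ha, e⟩
      refine ⟨?_, ha⟩
      rw [← e]
      exact h.sub _ (Set.subset_univ _) (D_card hy ho ha) (by simp [D])
    · rintro ⟨e, ha⟩
      refine ⟨ha, h.uniq _ (Set.subset_univ _) hc _ ?_ (D_card hy ho ha)⟩
      exact D_sub (hi _ hc (D_ss hy hv)) (h.sub _ (Set.subset_univ _) hc (by simp [D])) e
  set I : Finset (Set Ω) := F'.image f with hI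
  set J : Finset (Set Ω) := I.filter (fun X => (X ∩ fx Ω y).ncard = 5) with hJ
  have hs2 : ∑ X ∈ I, (F'.filter (fun a => f a = X)).card
      = ∑ X ∈ I, (2 + if (X ∩ fx Ω y).ncard = 5 then 3 else 0) := by
    refine Finset.sum_congr rfl fun X hX => ?_
    obtain ⟨v, hv, rfl⟩ := Finset.mem_image.1 hX
    have hv' := (hmF v).1 hv
    rw [hfib v hv']
    rcases trace h hy hi ho hv' with e | e
    · have e' : (f v ∩ fx Ω y).ncard = 2 := e
      rw [e']; simp
    · have e' : (f v ∩ fx Ω y).ncard = 5 := e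
      rw [e']; simp
  rw [hs2, Finset.sum_add_distrib, Finset.sum_const, ← Finset.sum_filter, Finset.sum_const,
    smul_eq_mul, smul_eq_mul, ← hJ, hcF] at hsum
  have hle : J.card ≤ I.card := Finset.card_filter_le _ _
  have h1 : J.card = 1 := by omega
  obtain ⟨X, hX⟩ := Finset.card_eq_one.1 h1
  have hXJ : X ∈ J := by rw [hX]; exact Finset.mem_singleton_self X
  obtain ⟨hXI, hX5⟩ := Finset.mem_filter.1 hXJ
  obtain ⟨v, hv, rfl⟩ := Finset.mem_image.1 hXI
  refine ⟨v, (hmF v).1 hv, hX5, fun w hw e => ?_⟩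
  have : f w ∈ J := Finset.mem_filter.2 ⟨Finset.mem_image_of_mem f ((hmF w).2 hw), e⟩
  rw [hX] at this
  exact Finset.mem_singleton.1 this

end Des3A

open Des3A in
theorem Des.cnt3 {Bl : Set Ω → Set Ω} (h : Des Set.univ Bl 8) (hy : y ^ 3 = 1)
    (hj : (fx Ω y).ncard = 5 ∨ (fx Ω y).ncard = 11)
    (h5 : ∀ Δ ⊆ fx Ω y, Δ.ncard = 4 → (Bl Δ ∩ fx Ω y).ncard = 5)
    (hi : ∀ Δ : Set Ω, Δ.ncard = 4 → y ∈ Ss G Δ → y ∈ Ss G (Bl Δ)) :
    Fintype.card Ω = 8 ∨ Fintype.card Ω = 209 := by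
  classical
  set F' : Finset Ω := (fx Ω y).toFinset with hF'
  have hmF : ∀ v, v ∈ F' ↔ v ∈ fx Ω y := fun v => Set.mem_toFinset
  have hcF : F'.card = (fx Ω y).ncard := (Set.ncard_eq_toFinset_card' _).symm
  have hP : ∀ X : Finset Ω, X ∈ F'.powersetCard 4 ↔ (X : Set Ω) ⊆ fx Ω y ∧ (X : Set Ω).ncard = 4 := by
    intro X
    rw [Finset.mem_powersetCard, Set.ncard_coe_finset]
    exact and_congr_left fun _ => ⟨fun e x hx => (hmF x).1 (e hx), fun e x hx => (hmF x).2 (e hx)⟩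
  have key := Finset.card_mul_eq_card_mul (s := F'.powersetCard 4) (t := F'ᶜ)
    (fun (X : Finset Ω) (o : Ω) => o ∈ Bl (X : Set Ω)) (m := 3) (n := 5) ?_ ?_
  · rw [Finset.card_powersetCard, Finset.card_compl, hcF] at key
    have hle : (fx Ω y).ncard ≤ Fintype.card Ω := by rw [← hcF]; exact Finset.card_le_univ _
    rcases hj with e | e
    · rw [e] at key hle
      have : Nat.choose 5 4 = 5 := by decide
      omega
    · rw [e] at key hle
      have : Nat.choose 11 4 = 330 := by decide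
      omega
  · intro X hX
    obtain ⟨h1, h2⟩ := (hP X).1 hX
    have h8 := h.card _ (Set.subset_univ _) h2
    have h55 := h5 _ h1 h2
    have hadd := Set.ncard_inter_add_ncard_sdiff_eq_ncard (Bl (X : Set Ω)) (fx Ω y) (Set.toFinite _)
    have : ((F'ᶜ).bipartiteAbove (fun (X : Finset Ω) (o : Ω) => o ∈ Bl (X : Set Ω)) X).card
        = (Bl (X : Set Ω) \ fx Ω y).ncard := by
      rw [← Set.ncard_coe_finset]
      congr 1
      ext a
      simp only [Finset.mem_coe, Finset.mem_bipartiteAbove, Finset.mem_compl, hmF, Set.mem_sdiff]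
      exact and_comm
    omega
  · intro o ho
    have ho' : o ∉ fx Ω y := fun e => (Finset.mem_compl.1 ho) ((hmF o).2 e)
    obtain ⟨v, hv, hv5, hu⟩ := uniq5 h hy hj hi ho'
    have hc := D_card hy ho' hv
    have : (F'.powersetCard 4).bipartiteBelow (fun (X : Finset Ω) (o : Ω) => o ∈ Bl (X : Set Ω)) o
        = ((Bl (D y o v) ∩ fx Ω y).toFinset).powersetCard 4 := by
      ext X
      rw [Finset.mem_bipartiteBelow, hP, Finset.mem_powersetCard, Set.ncard_coe_finset]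
      constructor
      · rintro ⟨⟨h1, h2⟩, h3⟩
        refine ⟨fun x hx => ?_, h2⟩
        have h2' : (X : Set Ω).ncard = 4 := by rw [Set.ncard_coe_finset, h2]
        have hs : y ∈ Ss G (Bl (X : Set Ω)) :=
          hi _ h2' (St_le_Ss (fun x hx => h1 hx))
        have hxB : x ∈ Bl (X : Set Ω) := h.sub _ (Set.subset_univ _) h2' hx
        have e : Bl (D y o x) = Bl (X : Set Ω) :=
          h.uniq _ (Set.subset_univ _) h2' _ (D_sub hs h3 hxB) (D_card hy ho' (h1 hx))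
        have e2 := hu x (h1 hx) (by rw [e]; exact h5 _ h1 h2')
        rw [Set.mem_toFinset]
        exact ⟨by rw [← e2, e]; exact hxB, h1 hx⟩
      · rintro ⟨h1, h2⟩
        have h1' : (X : Set Ω) ⊆ Bl (D y o v) ∩ fx Ω y := fun x hx => Set.mem_toFinset.1 (h1 hx)
        have h2' : (X : Set Ω).ncard = 4 := by rw [Set.ncard_coe_finset, h2]
        refine ⟨⟨fun x hx => (h1' hx).2, h2⟩, ?_⟩
        rw [h.uniq _ (Set.subset_univ _) hc _ (fun x hx => (h1' hx).1) h2']
        exact h.sub _ (Set.subset_univ _) hc (by simp [D])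
    rw [this, Finset.card_powersetCard, ← Set.ncard_eq_toFinset_card', hv5]
    decide

end Cfsg.Agent.Q4
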