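import Cfsg.Agent.Q4.Defs

set_option autoImplicit false
set_option linter.unusedSectionVars false

namespace Cfsg.Agent.Q4

open Subgroup

variable {G : Type*} [Group G] [Finite G] {Ω : Type*} [Fintype Ω] [DecidableEq Ω] [MulAction G Ω]
variable {N N' U V E H T M A B L Q Q' R : Subgroup G} {Γ Δ Δ' S F : Set Ω} {g s t u w y z : G}
variable {x x' a b c d : Ω} {k l p q i n κ : ℕ}

theorem kiso_inj (hf : ∀ g : G, (∀ x : Ω, g • x = x) → g = 1) : Function.Injective (MulAction.toPermHom G Ω) := by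
  rw [injective_iff_map_eq_one]
  intro g hg
  exact hf g fun x => Equiv.congr_fun hg x

theorem iso_alt (hf : ∀ g : G, (∀ x : Ω, g • x = x) → g = 1) (h : Alt (⊤ : Subgroup G) (Set.univ : Set Ω))
    (he : Ev (⊤ : Subgroup G) (Set.univ : Set Ω)) (hm : Fintype.card Ω = 8) :
    Nonempty (G ≃* alternatingGroup (Fin 8)) := by
  have hnt : Nontrivial Ω := Fintype.one_lt_card_iff_nontrivial.1 (by omega)
  have hle : alternatingGroup Ω ≤ (MulAction.toPermHom G Ω).range := fun σ hσ => by
    obtain ⟨g, -, hg⟩ := h σ (fun x hx => absurd (Set.mem_univ x) hx) hσ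
    exact ⟨g, Equiv.ext fun x => hg x (Set.mem_univ x)⟩
  have hge : (MulAction.toPermHom G Ω).range ≤ alternatingGroup Ω := by
    intro σ hσ
    by_contra hn
    obtain ⟨a, b, hab⟩ := exists_pair_ne Ω
    have hs : Equiv.Perm.sign σ = -1 := by
      rcases Int.units_eq_one_or (Equiv.Perm.sign σ) with h1 | h1
      · exact absurd (Equiv.Perm.mem_alternatingGroup.2 h1) hn
      · exact h1
    have h1 : Equiv.swap a b * σ⁻¹ ∈ alternatingGroup Ω := by
      rw [Equiv.Perm.mem_alternatingGroup, map_mul, map_inv, hs, Equiv.Perm.sign_swap hab]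
      simp
    have h2 := mul_mem (hle h1) hσ
    rw [inv_mul_cancel_right] at h2
    obtain ⟨g, hg⟩ := h2
    have h3 : ∀ x, g • x = Equiv.swap a b x := fun x => Equiv.congr_fun hg x
    have h4 := he g (mem_top g) (fun x _ => by rw [h3, h3, Equiv.swap_apply_self])
    have h5 : Set.univ \ fx Ω g = {a, b} := by
      ext v
      simp only [Set.mem_sdiff, Set.mem_univ, mem_fx, h3, true_and, Set.mem_insert_iff, Set.mem_singleton_iff]
      constructor
      · intro hv
        by_contra hc
        push Not at hc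
        exact hv (Equiv.swap_apply_of_ne_of_ne hc.1 hc.2)
      · rintro (rfl | rfl)
        · rw [Equiv.swap_apply_left]; exact hab.symm
        · rw [Equiv.swap_apply_right]; exact hab
    rw [h5, Set.ncard_pair hab] at h4
    omega
  exact ⟨((MonoidHom.ofInjective (kiso_inj hf)).trans (MulEquiv.subgroupCongr (le_antisymm hge hle))).trans
    (Fintype.equivFinOfCardEq hm).altCongrHom⟩

theorem iso_sym (hf : ∀ g : G, (∀ x : Ω, g • x = x) → g = 1) (hc : 5040 ≤ Nat.card G)
    (hm : Fintype.card Ω = 7) : Nonempty (G ≃* Equiv.Perm (Fin 7)) := by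
  have h1 : Nat.card (Equiv.Perm Ω) = 5040 := by
    rw [Nat.card_eq_fintype_card, Fintype.card_perm, hm]; rfl
  have h2 : Function.Bijective (MulAction.toPermHom G Ω) :=
    (kiso_inj hf).bijective_of_nat_card_le (by omega)
  exact ⟨(MulEquiv.ofBijective _ h2).trans (Fintype.equivFinOfCardEq hm).permCongrHom⟩

theorem q0_of [FaithfulSMul G Ω] (h4 : MulAction.IsMultiplyPretransitive G Ω 4) : Q0 G Ω := by
  refine ⟨fun g hg => FaithfulSMul.eq_of_smul_eq_smul (α := Ω) fun x => by rw [hg, one_smul], ?_⟩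
  intro X Y hX hY _ _
  obtain ⟨g, hg⟩ := MulAction.isMultiplyPretransitive_iff.1 h4 ⟨X, hX⟩ ⟨Y, hY⟩
  exact ⟨g, mem_top g, fun i => DFunLike.congr_fun hg i⟩

end Cfsg.Agent.Q4
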