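import Cfsg.Agent.Q4.KTr
import Cfsg.Agent.S0713

set_option autoImplicit false
set_option linter.unusedSectionVars false

namespace Cfsg.Agent.Q4

open Subgroup

variable {G : Type*} [Group G] [Finite G] {Ω : Type*} [Fintype Ω] [DecidableEq Ω] [MulAction G Ω]
variable {N N' U V E H T M A B L Q Q' R : Subgroup G} {Γ Δ Δ' S F : Set Ω} {g s t u w y z : G}
variable {x x' a b c d : Ω} {k l p q i n κ : ℕ}

namespace KJor

open Equiv

/-- the permutations of `Γ` induced by `N` -/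
def bar (N : Subgroup G) (Γ : Set Ω) : Subgroup (Perm Γ) where
  carrier := {τ | ∃ g ∈ N, ∀ x : Γ, (τ x : Ω) = g • (x : Ω)}
  one_mem' := ⟨1, one_mem _, fun x => (one_smul G _).symm⟩
  mul_mem' := fun ⟨g, hg, e⟩ ⟨h, hh, f⟩ => ⟨g * h, mul_mem hg hh, fun x => by rw [Perm.mul_apply, e, f, mul_smul]⟩
  inv_mem' := fun {τ} ⟨g, hg, e⟩ => ⟨g⁻¹, inv_mem hg, fun x => by
    rw [eq_inv_smul_iff, ← e]; simp⟩

theorem exists_bar (hi : Inv N Γ) (hg : g ∈ N) : ∃ τ ∈ bar N Γ, ∀ x : Γ, (τ x : Ω) = g • (x : Ω) :=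
  ⟨⟨fun x => ⟨g • x.1, hi g hg _ x.2⟩, fun x => ⟨g⁻¹ • x.1, hi _ (inv_mem hg) _ x.2⟩,
    fun x => Subtype.ext (inv_smul_smul g x.1), fun x => Subtype.ext (smul_inv_smul g x.1)⟩,
    ⟨g, hg, fun _ => rfl⟩, fun _ => rfl⟩

theorem prim (h : Tr 2 N Γ) (hi : Inv N Γ) : MulAction.IsPreprimitive (bar N Γ) Γ := by
  refine MulAction.isPreprimitive_of_is_two_pretransitive (MulAction.is_two_pretransitive_iff.2 ?_)
  intro a b c d ab cd
  obtain ⟨g, hg, e1, e2⟩ := tr2_iff.1 h a a.2 b b.2 c c.2 d d.2 (Subtype.coe_ne_coe.2 ab) (Subtype.coe_ne_coe.2 cd)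
  obtain ⟨τ, hτ, e⟩ := exists_bar hi hg
  exact ⟨⟨τ, hτ⟩, Subtype.ext ((e a).trans e1), Subtype.ext ((e b).trans e2)⟩

theorem card_supp [Fintype Γ] {τ : Perm Γ} (e : ∀ x : Γ, (τ x : Ω) = g • (x : Ω)) :
    τ.support.card = (Γ \ fx Ω g).ncard := by
  rw [← Set.ncard_coe_finset, ← Set.ncard_image_of_injective _ Subtype.val_injective]
  congr 1
  ext x
  simp only [Set.mem_image, Finset.mem_coe, Perm.mem_support, Set.mem_diff, mem_fx]
  constructor
  · rintro ⟨y, hy, rfl⟩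
    exact ⟨y.2, fun k => hy (Subtype.ext ((e y).trans k))⟩
  · exact fun ⟨h1, h2⟩ => ⟨⟨x, h1⟩, fun k => h2 ((e ⟨x, h1⟩).symm.trans (congrArg Subtype.val k)), rfl⟩

theorem mem_iff {σ : Perm Ω} (h : ∀ x ∉ Γ, σ x = x) (x : Ω) : σ x ∈ Γ ↔ x ∈ Γ := by
  refine ⟨fun k => by_contra fun n => n (h x n ▸ k), fun k => by_contra fun n => n ?_⟩
  rw [σ.injective (h _ n)]; exact k

theorem of_mem {σ : Perm Ω} (h : ∀ x ∉ Γ, σ x = x) (m : σ.subtypePerm (mem_iff h) ∈ bar N Γ) :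
    ∃ g ∈ N, ∀ x ∈ Γ, g • x = σ x :=
  let ⟨g, hg, e⟩ := m
  ⟨g, hg, fun x hx => (e ⟨x, hx⟩).symm⟩

end KJor

open KJor Equiv

theorem jordan (h : Tr 2 N Γ) (hi : Inv N Γ) (hg : g ∈ N) (hp : p.Prime) (e : ∀ x ∈ Γ, g ^ p • x = x)
    (hs : (Γ \ fx Ω g).ncard = p) (hn : p ≤ 3 ∨ p + 3 ≤ Γ.ncard) : Alt N Γ := by
  classical
  obtain ⟨τ, hτ, t⟩ := exists_bar hi hg
  have c : τ.support.card = p := (card_supp t).trans hs
  have pr := prim h hi
  have key : alternatingGroup Γ ≤ bar N Γ := by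
    rcases hn with hn | hn
    · rcases (show p = 2 ∨ p = 3 by have := hp.two_le; omega) with rfl | rfl
      · rw [Perm.subgroup_eq_top_of_isPreprimitive_of_isSwap_mem pr τ (Perm.card_support_eq_two.1 c) hτ]
        exact le_top
      · exact Perm.alternatingGroup_le_of_isPreprimitive_of_isThreeCycle_mem pr
          (card_support_eq_three_iff.1 c) hτ
    · have pw : ∀ (i : ℕ) (x : Γ), ((τ ^ i) x : Ω) = g ^ i • (x : Ω) := fun i => by
        induction i with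
        | zero => simp
        | succ i ih => intro x; rw [pow_succ', Perm.mul_apply, t, ih, pow_succ', mul_smul]
      haveI := Fact.mk hp
      have o : orderOf τ = p := orderOf_eq_prime (Equiv.ext fun x => Subtype.ext ((pw p x).trans (e x x.2))) (by
        rintro rfl
        simp at c
        exact hp.ne_zero c.symm)
      have k : Fintype.card Γ = Γ.ncard := by rw [← Nat.card_eq_fintype_card, Nat.card_coe_set_eq]
      have := hp.two_le
      exact Cfsg.Agent.S0713.result _ pr hp (by omega) (by omega)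
        (Perm.isCycle_of_prime_order (o ▸ hp) (by omega)) c hτ
  intro σ h1 h2
  refine of_mem h1 (key ?_)
  rw [Perm.mem_alternatingGroup] at h2 ⊢
  rw [← h2]
  convert Perm.sign_subtypePerm σ (mem_iff h1) fun x hx => by_contra fun n => hx (h1 x n)

theorem jordan2 (h : Tr 2 N Γ) (hi : Inv N Γ) (hg : g ∈ N) (hs : (Γ \ fx Ω g).ncard = 2) : Sym N Γ := by
  classical
  obtain ⟨τ, hτ, t⟩ := exists_bar hi hg
  intro σ h1
  refine of_mem h1 ?_
  rw [Perm.subgroup_eq_top_of_isPreprimitive_of_isSwap_mem (prim h hi) τ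
    (Perm.card_support_eq_two.1 ((card_supp t).trans hs)) hτ]
  trivial

theorem Alt.three (h : Alt N Γ) (ha : a ∈ Γ) (hb : b ∈ Γ) (hc : c ∈ Γ) (ab : a ≠ b) (ac : a ≠ c) (bc : b ≠ c) :
    ∃ g ∈ N, g • a = b ∧ g • b = c ∧ g • c = a ∧ ∀ x ∈ Γ, x ≠ a → x ≠ b → x ≠ c → g • x = x := by
  obtain ⟨g, hg, e⟩ := h (swap a c * swap a b) (fun x hx => by
    rw [Perm.mul_apply, swap_apply_of_ne_of_ne (ne_of_mem_of_not_mem ha hx).symm (ne_of_mem_of_not_mem hb hx).symm,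
      swap_apply_of_ne_of_ne (ne_of_mem_of_not_mem ha hx).symm (ne_of_mem_of_not_mem hc hx).symm])
    (by rw [Perm.mem_alternatingGroup, map_mul, Perm.sign_swap ac, Perm.sign_swap ab]; simp)
  refine ⟨g, hg, ?_, ?_, ?_, fun x hx h1 h2 h3 => ?_⟩
  · rw [e a ha, Perm.mul_apply, swap_apply_left, swap_apply_of_ne_of_ne ab.symm bc]
  · rw [e b hb, Perm.mul_apply, swap_apply_right, swap_apply_left]
  · rw [e c hc, Perm.mul_apply, swap_apply_of_ne_of_ne ac.symm bc.symm, swap_apply_right]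
  · rw [e x hx, Perm.mul_apply, swap_apply_of_ne_of_ne h1 h2, swap_apply_of_ne_of_ne h1 h3]

theorem Alt.dbl (h : Alt N Γ) (hd : D4 a b c d) (hΓ : ({a, b, c, d} : Set Ω) ⊆ Γ) :
    ∃ g ∈ N, g • a = b ∧ g • b = a ∧ g • c = d ∧ g • d = c ∧
      ∀ x ∈ Γ, x ∉ ({a, b, c, d} : Set Ω) → g • x = x := by
  have ha : a ∈ Γ := hΓ (by simp)
  have hb : b ∈ Γ := hΓ (by simp)
  have hc : c ∈ Γ := hΓ (by simp)
  have hd' : d ∈ Γ := hΓ (by simp)
  have fix : ∀ x, x ∉ ({a, b, c, d} : Set Ω) → (swap a b * swap c d) x = x := fun x hx => by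
    simp only [Set.mem_insert_iff, Set.mem_singleton_iff, not_or] at hx
    rw [Perm.mul_apply, swap_apply_of_ne_of_ne hx.2.2.1 hx.2.2.2, swap_apply_of_ne_of_ne hx.1 hx.2.1]
  obtain ⟨g, hg, e⟩ := h (swap a b * swap c d) (fun x hx => fix x fun k => hx (hΓ k))
    (by rw [Perm.mem_alternatingGroup, map_mul, Perm.sign_swap hd.ab, Perm.sign_swap hd.cd]; simp)
  refine ⟨g, hg, ?_, ?_, ?_, ?_, fun x hx h1 => (e x hx).trans (fix x h1)⟩
  · rw [e a ha, Perm.mul_apply, swap_apply_of_ne_of_ne hd.ac hd.ad, swap_apply_left]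
  · rw [e b hb, Perm.mul_apply, swap_apply_of_ne_of_ne hd.bc hd.bd, swap_apply_right]
  · rw [e c hc, Perm.mul_apply, swap_apply_left, swap_apply_of_ne_of_ne hd.ad.symm hd.bd.symm]
  · rw [e d hd', Perm.mul_apply, swap_apply_right, swap_apply_of_ne_of_ne hd.ac.symm hd.bc.symm]

theorem Sym.tr (h : Sym N Γ) (k : ℕ) : Tr k N Γ := by
  classical
  intro x y hx hy mx my
  obtain ⟨τ, t⟩ := Perm.exists_extending_pair (fun i => (⟨x i, mx i⟩ : Γ)) (fun i => (⟨y i, my i⟩ : Γ))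
    (fun i j e => hx (congrArg Subtype.val e)) fun i j e => hy (congrArg Subtype.val e)
  obtain ⟨g, hg, e⟩ := h (Perm.ofSubtype τ) fun z hz => Perm.ofSubtype_apply_of_not_mem τ hz
  exact ⟨g, hg, fun i => by rw [e _ (mx i), Perm.ofSubtype_apply_of_mem τ (mx i), t i]⟩

end Cfsg.Agent.Q4
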