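import Cfsg.Agent.Q4.KFix

set_option autoImplicit false
set_option linter.unusedSectionVars false

namespace Cfsg.Agent.Q4

open Subgroup

variable {G : Type*} [Group G] [Finite G] {Ω : Type*} [Fintype Ω] [DecidableEq Ω] [MulAction G Ω]
variable {N N' U V E H T M A B L Q Q' R : Subgroup G} {Γ Δ Δ' S F : Set Ω} {g s t u w y z : G}
variable {x x' a b c d : Ω} {k l p q i n κ : ℕ}

theorem klift_pg (hQ : ∀ u ∈ Q, Two u) : IsPGroup 2 Q := fun u =>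
  (hQ u u.2).imp fun _ h => Subtype.ext h

/-- a map of order three on a coset of a 2-group has a fixed point -/
theorem klift_fix (hQ : ∀ u ∈ Q, Two u) (y3 : y ^ 3 = 1) (z3 : z ^ 3 = 1)
    (h : ∀ w ∈ Q, y * (w * s) * z * s⁻¹ ∈ Q) : ∃ w ∈ Q, y * (w * s) * z = w * s := by
  classical
  have : Fact (Nat.Prime 3) := ⟨Nat.prime_three⟩
  have := Fintype.ofFinite Q
  let f : Function.End Q := fun w => ⟨_, h w w.2⟩
  have hf : f ^ 3 ^ 1 = 1 := by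
    funext w
    refine Subtype.ext ?_
    show y * (y * (y * (w * s) * z * s⁻¹ * s) * z * s⁻¹ * s) * z * s⁻¹ = w
    calc _ = y ^ 3 * (w * s) * z ^ 3 * s⁻¹ := by
          simp only [pow_succ, pow_zero, one_mul, mul_assoc, inv_mul_cancel_left]
      _ = w := by rw [y3, z3]; group
  have e := Equiv.Perm.card_fixedPoints_modEq hf
  obtain ⟨m, hm⟩ := (klift_pg hQ).exists_card_eq
  rw [← Nat.card_eq_fintype_card, hm] at e
  have : Fintype.card f.fixedPoints ≠ 0 := fun e0 => by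
    rw [e0] at e
    have := (Nat.Prime.dvd_of_dvd_pow Nat.prime_three (Nat.modEq_zero_iff_dvd.1 e))
    omega
  obtain ⟨⟨w, hw⟩⟩ := Fintype.card_pos_iff.1 (Nat.pos_of_ne_zero this)
  exact ⟨w, w.2, mul_inv_eq_iff_eq_mul.1 (congrArg Subtype.val hw)⟩

theorem lift33 (hQ : ∀ u ∈ Q, Two u) (hy : y ∈ Nm Q) (hg : g ∈ Nm Q) (y3 : y ^ 3 = 1) (g3 : g ^ 3 ∈ Q)
    (e : g * y * g⁻¹ * y⁻¹ ∈ Q) : ∃ w ∈ Q, (g * w) ^ 3 = 1 ∧ g * w * y = y * (g * w) := by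
  obtain ⟨w, hw, hc⟩ := klift_fix (s := g) (z := y⁻¹) hQ y3 (by rw [inv_pow, y3, inv_one]) fun w hw => by
    have := mul_mem (nr_Nm y hy w hw) (inv_mem e)
    convert this using 1
    group
  have c3 : (w * g) ^ 3 ∈ Q := by
    have := mul_mem (mul_mem (mul_mem hw (nr_Nm g hg w hw)) (nr_Nm g hg _ (nr_Nm g hg w hw))) g3
    convert this using 1
    simp only [pow_succ]
    group
  obtain ⟨m, hm⟩ := hQ _ c3
  obtain ⟨j, hj⟩ : ∃ j, 4 ^ m = 1 + 3 * j := by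
    have : 4 ^ m % 3 = 1 := by rw [Nat.pow_mod]; simp
    exact ⟨4 ^ m / 3, by omega⟩
  have e1 : g * (g⁻¹ * w * g⁻¹⁻¹ * ((w * g) ^ 3) ^ j) = (w * g) ^ 4 ^ m := by
    rw [hj, pow_add, pow_one, pow_mul, inv_inv]
    simp only [mul_assoc, mul_inv_cancel_left]
  refine ⟨_, mul_mem (nr_Nm _ (inv_mem hg) w hw) (pow_mem c3 j), ?_, ?_⟩
  · rw [e1, ← pow_mul, mul_comm (4 ^ m), pow_mul, show 4 = 2 * 2 from rfl, mul_pow, pow_mul, hm, one_pow]
  · rw [e1]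
    exact (Commute.pow_left (mul_inv_eq_iff_eq_mul.1 hc).symm _).eq

theorem lift2 (hQ : ∀ u ∈ Q, Two u) (hy : y ∈ Nm Q) (hs : s ∈ Nm Q) (y3 : y ^ 3 = 1)
    (e : s * y * s⁻¹ * y ∈ Q) : ∃ w ∈ Q, (w * s) * y * (w * s)⁻¹ = y⁻¹ := by
  have _ := hs
  obtain ⟨w, hw, hc⟩ := klift_fix (s := s) hQ y3 y3 fun w hw => by
    have := nr_Nm y hy _ (mul_mem hw e)
    convert this using 1
    group
  refine ⟨w, hw, ?_⟩
  rw [mul_inv_eq_iff_eq_mul, eq_inv_mul_iff_mul_eq, ← mul_assoc, hc]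

/-- a 2-element normalising a non-trivial 2-group centralises an involution -/
theorem klift_two (hR : IsPGroup 2 R) (e : R ≠ ⊥) (ht : ∀ r ∈ R, t * r * t⁻¹ ∈ R) (h2 : Two t) :
    ∃ s ∈ R, s ≠ 1 ∧ s * s = 1 ∧ s * t = t * s := by
  classical
  have := Fintype.ofFinite R
  let f : Function.End R := fun w => ⟨_, ht w w.2⟩
  have hk : ∀ k : ℕ, ∀ w : R, ((f ^ k) w : G) = t ^ k * w * (t ^ k)⁻¹ := fun k => by
    induction k with
    | zero => exact fun w => by rw [pow_zero, pow_zero, one_mul, inv_one, mul_one]; rfl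
    | succ k ih =>
      intro w
      rw [pow_succ']
      show t * ((f ^ k) w : G) * t⁻¹ = _
      rw [ih, pow_succ']
      group
  obtain ⟨m, hm⟩ := h2
  have hf : f ^ 2 ^ m = 1 := funext fun w => Subtype.ext (by rw [hk, hm, one_mul, inv_one, mul_one]; rfl)
  have e1 := Equiv.Perm.card_fixedPoints_modEq hf
  obtain ⟨j, hj0, hj⟩ := hR.nontrivial_iff_card.1 ((nontrivial_iff_ne_bot R).2 e)
  rw [← Nat.card_eq_fintype_card, hj] at e1
  have e2 : 2 ∣ Fintype.card f.fixedPoints :=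
    (e1.dvd_iff dvd_rfl).1 (dvd_pow_self 2 hj0.ne')
  let o : f.fixedPoints := ⟨1, Subtype.ext (by simp [f])⟩
  have : Nonempty f.fixedPoints := ⟨o⟩
  obtain ⟨⟨w, hw⟩, hw1⟩ := Fintype.exists_ne_of_one_lt_card
    (lt_of_lt_of_le one_lt_two (Nat.le_of_dvd Fintype.card_pos e2)) o
  have w1 : w ≠ 1 := fun h => hw1 (Subtype.ext h)
  have c : Commute (w : G) t := (mul_inv_eq_iff_eq_mul.1 (congrArg Subtype.val hw)).symm
  have d2 : 2 ∣ orderOf w := hR.dvd_orderOf w1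
  have o2 := orderOf_pow_orderOf_div (orderOf_pos w).ne' d2
  refine ⟨_, (w ^ (orderOf w / 2)).2, fun h => ?_, ?_, (c.pow_left _).eq⟩
  · rw [show w ^ (orderOf w / 2) = 1 from Subtype.ext h, orderOf_one] at o2
    omega
  · have := pow_orderOf_eq_one (w ^ (orderOf w / 2))
    rw [o2, pow_two] at this
    exact congrArg Subtype.val this

theorem two_fix (hR : ∀ u ∈ R, Two u) (hRQ : R ≤ Nm Q) (e : ¬ R ≤ Q) (ht : t ∈ Nm Q) (htR : t ∈ Nm R)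
    (h2 : Two t) : ∃ s ∈ R, s ∉ Q ∧ s * s ∈ Q ∧ s * t * s⁻¹ * t⁻¹ ∈ Q := by
  let π := QuotientGroup.mk' (Q.subgroupOf (Nm Q))
  have hπ : ∀ a : Nm Q, π a = 1 ↔ (a : G) ∈ Q := fun a => QuotientGroup.eq_one_iff a
  obtain ⟨_, ⟨s, hs, rfl⟩, s1, s2, s3⟩ := klift_two (R := (R.subgroupOf (Nm Q)).map π) (t := π ⟨t, ht⟩)
    ((klift_pg hR).comap_subtype.map π)
    (fun h => e fun r hr => (hπ ⟨r, hRQ hr⟩).1 (mem_bot.1 (h ▸ mem_map_of_mem π (show _ ∈ R.subgroupOf _ from hr))))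
    (by
      rintro _ ⟨r, hr, rfl⟩
      exact ⟨⟨t, ht⟩ * r * ⟨t, ht⟩⁻¹, nr_Nm t htR r hr, by simp⟩)
    (h2.imp fun m hm => by
      rw [← map_pow, show (⟨t, ht⟩ : Nm Q) ^ 2 ^ m = 1 from Subtype.ext hm, map_one])
  refine ⟨s, hs, fun h => s1 ((hπ s).2 h), (hπ (s * s)).1 (by rw [map_mul, s2]),
    (hπ (s * ⟨t, ht⟩ * s⁻¹ * ⟨t, ht⟩⁻¹)).1 ?_⟩
  rw [map_mul, map_mul, map_mul, s3, map_inv, map_inv]
  group

end Cfsg.Agent.Q4
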