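import Cfsg.Agent.Q4.KFix

set_option autoImplicit false
set_option linter.unusedSectionVars false

namespace Cfsg.Agent.Q4

open Subgroup

variable {G : Type*} [Group G] [Finite G] {Ω : Type*} [Fintype Ω] [DecidableEq Ω] [MulAction G Ω]
variable {N N' U V E H T M A B L Q Q' R : Subgroup G} {Γ Δ Δ' S F : Set Ω} {g s t u w y z : G}
variable {x x' a b c d : Ω} {k l p q i n κ : ℕ}
variable {K : Subgroup G}

namespace KNil

theorem last (hK : Group.IsNilpotent K) (hR : R ≤ K) (hn : Nr R K) (e : ¬ R ≤ Q) :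
    ∃ r ∈ R, r ∉ Q ∧ ∀ u ∈ K, r * u * r⁻¹ * u⁻¹ ∈ Q := by
  have key : ∀ m : ℕ, ∀ r : K, r ∈ Subgroup.upperCentralSeries K m → (r : G) ∈ R → (r : G) ∉ Q →
      ∃ r ∈ R, r ∉ Q ∧ ∀ u ∈ K, r * u * r⁻¹ * u⁻¹ ∈ Q := by
    intro m
    induction m with
    | zero =>
      intro r hr _ h
      rw [Subgroup.upperCentralSeries_zero, mem_bot] at hr
      exact absurd (by rw [hr]; exact one_mem Q) h
    | succ m ih =>
      intro r hr h1 h2
      by_cases c : ∀ u ∈ K, (r : G) * u * (r : G)⁻¹ * u⁻¹ ∈ Q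
      · exact ⟨r, h1, h2, c⟩
      · push Not at c
        obtain ⟨u, hu, c⟩ := c
        refine ih _ (Subgroup.mem_upperCentralSeries_succ_iff.1 hr ⟨u, hu⟩) ?_ c
        have := mul_mem h1 (hn u hu _ (inv_mem h1))
        rw [← mul_assoc, ← mul_assoc] at this
        exact this
  obtain ⟨m, hm⟩ := hK.nilpotent
  obtain ⟨r, h1, h2⟩ := SetLike.not_le_iff_exists.1 e
  exact key m ⟨r, hR h1⟩ (hm ▸ mem_top _) h1 h2

theorem comp {Y : Type*} [Group Y] (hp : IsPGroup p Y) {y : Y} (c : p.Coprime n) (e : y ^ n = 1) : y = 1 := by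
  obtain ⟨j, hj⟩ := hp y
  exact (pow_eq_one_iff_of_coprime (c.pow_left j)).1 ⟨hj, e⟩

theorem both {Y : Type*} [Group Y] [Finite Y] (hY : Group.IsNilpotent Y) {r m : ℕ} (c : r.Coprime m) {a b : Y}
    (ha : a ^ r = 1) : (b ^ m = 1 → a * b = b * a) ∧ ∀ j, b ^ r = 1 → ((a * b) ^ j) ^ m = 1 → (a * b) ^ j = 1 := by
  obtain ⟨e⟩ := ((Group.isNilpotent_of_finite_tfae (G := Y)).out 0 4).1 hY
  have cp : ∀ p : (Nat.card Y).primeFactors, (p : ℕ).Coprime r ∨ (p : ℕ).Coprime m := fun p => by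
    have pp := Nat.prime_of_mem_primeFactors p.2
    rw [pp.coprime_iff_not_dvd, pp.coprime_iff_not_dvd, ← not_and_or]
    exact fun h => pp.one_lt.ne' (Nat.eq_one_of_dvd_coprimes c h.1 h.2)
  have one : ∀ (x : Y) (n : ℕ) (p : (Nat.card Y).primeFactors) (P : Sylow p Y), (p : ℕ).Coprime n → x ^ n = 1 →
      e.symm x p P = 1 := fun x n p P h hx => comp P.2 h (by
    have : e.symm x ^ n = 1 := by rw [← map_pow, hx, map_one]
    exact congrFun (congrFun this p) P)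
  refine ⟨fun hb => e.symm.injective ?_, fun j hb hj => e.symm.injective ?_⟩
  · rw [map_mul, map_mul]
    funext p P
    show e.symm a p P * e.symm b p P = e.symm b p P * e.symm a p P
    rcases cp p with h | h
    · rw [one a r p P h ha, one_mul, mul_one]
    · rw [one b m p P h hb, one_mul, mul_one]
  · rw [map_one]
    funext p P
    rcases cp p with h | h
    · rw [map_pow, map_mul]
      show (e.symm a p P * e.symm b p P) ^ j = 1
      rw [one a r p P h ha, one b r p P h hb, one_mul, one_pow]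
    · exact one _ m p P h hj

theorem mul_pw (hK : Group.IsNilpotent K) {r m j : ℕ} (c : r.Coprime m) (e : Nat.card G = j * m) (hs : s ∈ K)
    (hu : u ∈ K) (h1 : s ^ r = 1) (h2 : u ^ r = 1) : (s * u) ^ j = 1 :=
  congrArg Subtype.val ((both hK c (a := ⟨s, hs⟩) (b := ⟨u, hu⟩) (Subtype.ext h1)).2 j (Subtype.ext h2)
    (Subtype.ext (by
      show ((s * u) ^ j) ^ m = 1
      rw [← pow_mul, ← e, pow_card_eq_one'])))

end KNil

open KNil

theorem nil_grow (hK : Group.IsNilpotent K) (hQ : Q ≤ K) (hR : R ≤ K) (hn : Nr R K) (e : ¬ R ≤ Q) :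
    ∃ r ∈ R, r ∈ Nm Q ∧ r ∉ Q := by
  obtain ⟨r, h1, h2, h3⟩ := last hK hR hn e
  refine ⟨r, h1, Subgroup.mem_normalizer_fintype (S := (Q : Set G)) fun v hv => ?_, h2⟩
  have := mul_mem (h3 v (hQ hv)) hv
  rwa [inv_mul_cancel_right] at this
theorem nil_comm (hK : Group.IsNilpotent K) (hs : s ∈ K) (hu : u ∈ K) (h2 : Two s) (ho : Odd (orderOf u)) :
    s * u = u * s := by
  obtain ⟨j, hj⟩ := h2
  exact congrArg Subtype.val ((both hK ((Nat.coprime_two_left.2 ho).pow_left j) (a := ⟨s, hs⟩) (b := ⟨u, hu⟩)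
    (Subtype.ext hj)).1 (Subtype.ext (pow_orderOf_eq_one u)))
theorem nil_two (hK : Group.IsNilpotent K) : ∃ P ≤ K, ∀ g, g ∈ P ↔ g ∈ K ∧ Two g := by
  obtain ⟨j, m, hm, e⟩ := Nat.exists_eq_two_pow_mul_odd (Nat.card_pos (α := G)).ne'
  refine ⟨⟨⟨⟨{g | g ∈ K ∧ Two g}, fun {a b} ⟨ha, i, hi⟩ ⟨hb, l, hl⟩ => ⟨mul_mem ha hb, j, ?_⟩⟩,
    one_mem _, 0, one_pow _⟩, fun {a} ⟨ha, i, hi⟩ => ⟨inv_mem ha, i, by rw [inv_pow, hi, inv_one]⟩⟩,
    fun _ h => h.1, fun _ => Iff.rfl⟩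
  exact mul_pw hK ((Nat.coprime_two_left.2 hm).pow_left (i + l)) e ha hb (by rw [pow_add, pow_mul, hi, one_pow])
    (by rw [pow_add, mul_comm, pow_mul, hl, one_pow])
theorem nil_odd (hK : Group.IsNilpotent K) : ∃ R ≤ K, ∀ g, g ∈ R ↔ g ∈ K ∧ Odd (orderOf g) := by
  obtain ⟨j, m, hm, e⟩ := Nat.exists_eq_two_pow_mul_odd (Nat.card_pos (α := G)).ne'
  refine ⟨⟨⟨⟨{g | g ∈ K ∧ Odd (orderOf g)}, fun {a b} ⟨ha, hi⟩ ⟨hb, hl⟩ => ⟨mul_mem ha hb, ?_⟩⟩,
    one_mem _, by rw [orderOf_one]; exact odd_one⟩, fun {a} ⟨ha, hi⟩ => ⟨inv_mem ha, by rwa [orderOf_inv]⟩⟩,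
    fun _ h => h.1, fun _ => Iff.rfl⟩
  exact hm.of_dvd_nat (orderOf_dvd_of_pow_eq_one (mul_pw hK
    ((Nat.coprime_two_right.2 (hi.mul hl)).pow_right j) (e.trans (mul_comm _ _)) ha hb
    (by rw [pow_mul, pow_orderOf_eq_one, one_pow]) (by rw [mul_comm, pow_mul, pow_orderOf_eq_one, one_pow])))
theorem nil_cen (hK : Group.IsNilpotent K) (hR : R ≤ K) (hn : Nr R K) (e : R ≠ ⊥) :
    ∃ r ∈ R, r ≠ 1 ∧ ∀ u ∈ K, u * r = r * u := by
  obtain ⟨r, h1, h2, h3⟩ := last (Q := ⊥) hK hR hn (by rwa [le_bot_iff])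
  refine ⟨r, h1, by rwa [mem_bot] at h2, fun u hu => ?_⟩
  have := h3 u hu
  rw [mem_bot, mul_inv_eq_one, mul_inv_eq_iff_eq_mul] at this
  exact this.symm
theorem two_of_no_odd (e : ∀ g ∈ K, Odd (orderOf g) → g = 1) : ∀ g ∈ K, Two g := fun g hg => by
  obtain ⟨j, m, hm, h⟩ := Nat.exists_eq_two_pow_mul_odd (Nat.card_pos (α := G)).ne'
  exact ⟨j, e _ (pow_mem hg _) (hm.of_dvd_nat (orderOf_dvd_of_pow_eq_one (by rw [← pow_mul, ← h, pow_card_eq_one'])))⟩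

end Cfsg.Agent.Q4
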