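import Cfsg.Agent.Q4.KTr
import Cfsg.Agent.Q4.KFix

set_option autoImplicit false
set_option linter.unusedSectionVars false

namespace Cfsg.Agent.Q4

open Subgroup

variable {G : Type*} [Group G] [Finite G] {Ω : Type*} [Fintype Ω] [DecidableEq Ω] [MulAction G Ω]
variable {N N' U V E H T M A B L Q Q' R : Subgroup G} {Γ Δ Δ' S F : Set Ω} {g s t u w y z : G}
variable {x x' a b c d : Ω} {k l p q i n κ : ℕ}

theorem kreg_eq (h2 : ∀ x ∈ Γ, ∀ e ∈ E, e • x = x → e = 1) (hb : b ∈ Γ) {e e' : G} (he : e ∈ E) (he' : e' ∈ E)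
    (h : e • b = e' • b) : e = e' := by
  have := h2 b hb (e'⁻¹ * e) (E.mul_mem (E.inv_mem he') he) (by rw [mul_smul, h, inv_smul_smul])
  exact (inv_mul_eq_one.1 this).symm

theorem kreg_card {C : Subgroup G} (h2 : ∀ x ∈ Γ, ∀ e ∈ E, e • x = x → e = 1) (hb : b ∈ Γ) (hC : C ≤ E)
    (hm : ∀ e ∈ C, e • b ∈ F) (hs : ∀ v ∈ F, ∃ e ∈ C, e • b = v) : F.ncard = Nat.card C := by
  rw [← Nat.card_coe_set_eq]
  symm
  refine Nat.card_congr (Equiv.ofBijective (fun e : C => (⟨(e : G) • b, hm e e.2⟩ : F)) ⟨?_, ?_⟩)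
  · intro e e' h
    exact Subtype.ext (kreg_eq h2 hb (hC e.2) (hC e'.2) (congrArg Subtype.val h))
  · rintro ⟨v, hv⟩
    obtain ⟨e, he, h⟩ := hs v hv
    exact ⟨⟨e, he⟩, Subtype.ext h⟩

theorem kreg_conj (h2 : ∀ x ∈ Γ, ∀ e ∈ E, e • x = x → e = 1) (hb : b ∈ Γ) (hn : Nr E N) (hg : g ∈ N) {e e' : G}
    (he : e ∈ E) (he' : e' ∈ E) (h1 : g • b = b) (h : g • e • b = e' • b) : g * e * g⁻¹ = e' := by
  refine kreg_eq h2 hb (hn g hg e he) he' ?_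
  have : g⁻¹ • b = b := by rw [inv_smul_eq_iff, h1]
  rw [mul_smul, mul_smul, this, h]

theorem kreg_out (s : Finset Ω) (h : s.card < Fintype.card Ω) : ∃ x, x ∉ s := by
  by_contra hc
  push Not at hc
  have : s = Finset.univ := Finset.eq_univ_of_forall hc
  rw [this, Finset.card_univ] at h
  exact lt_irrefl _ h

theorem reg_card (hi : Inv E Γ) (h1 : ∀ x ∈ Γ, ∀ v ∈ Γ, ∃ e ∈ E, e • x = v)
    (h2 : ∀ x ∈ Γ, ∀ e ∈ E, e • x = x → e = 1) (hn : Nr E U) (hb : b ∈ Γ ∩ Fx Ω U) :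
    ∃ C ≤ E, (Γ ∩ Fx Ω U).ncard = Nat.card C := by
  refine ⟨E ⊓ centralizer (U : Set G), inf_le_left, kreg_card h2 hb.1 inf_le_left ?_ ?_⟩
  · rintro e ⟨he, hc⟩
    refine ⟨hi e he b hb.1, fun u hu => ?_⟩
    have := (mem_centralizer_iff.1 hc) u hu
    rw [← mul_smul, this, mul_smul, hb.2 u hu]
  · rintro v ⟨hv, hv'⟩
    obtain ⟨e, he, h⟩ := h1 b hb.1 v hv
    refine ⟨e, ⟨he, mem_centralizer_iff.2 fun u hu => ?_⟩, h⟩
    have := kreg_conj h2 hb.1 hn hu he he (hb.2 u hu) (by rw [h, hv' u hu])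
    exact mul_inv_eq_iff_eq_mul.1 this

theorem reg_card' (hi : Inv E Γ) (h1 : ∀ x ∈ Γ, ∀ v ∈ Γ, ∃ e ∈ E, e • x = v)
    (h2 : ∀ x ∈ Γ, ∀ e ∈ E, e • x = x → e = 1) (hb : b ∈ Γ) : Γ.ncard = Nat.card E :=
  kreg_card h2 hb le_rfl (fun e he => hi e he b hb) (fun v hv => h1 b hb v hv)

theorem reg_pow (hi : Inv N Γ) (hE : E ≤ N) (hn : Nr E N) (ht : Tr 2 N Γ)
    (h2 : ∀ x ∈ Γ, ∀ e ∈ E, e • x = x → e = 1) (hb : b ∈ Γ) (hp : p.Prime) (hd : p ∣ Nat.card E) :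
    ∀ e ∈ E, e ^ p = 1 := by
  intro e he
  by_cases h1 : e = 1
  · rw [h1, one_pow]
  haveI := Fact.mk hp
  obtain ⟨e0, h0⟩ := exists_prime_orderOf_dvd_card' p hd
  have h0' : orderOf (e0 : G) = p := by rw [Subgroup.orderOf_coe, h0]
  have hne : (e0 : G) ≠ 1 := by
    intro h
    rw [h, orderOf_one] at h0'
    exact hp.one_lt.ne h0'
  obtain ⟨g, hg, e1, e2⟩ := tr2_iff.1 ht b hb ((e0 : G) • b) (hi _ (hE e0.2) b hb) b hb (e • b) (hi _ (hE he) b hb)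
    (fun h => hne (h2 b hb _ e0.2 h.symm)) (fun h => h1 (h2 b hb _ he h.symm))
  rw [← kreg_conj h2 hb hn hg e0.2 he e1 e2, conj_pow, ← h0', pow_orderOf_eq_one, mul_one, mul_inv_cancel]

theorem inv_St_compl (S : Set Ω) : Inv (St G S) Sᶜ := by
  intro g hg x hx h
  have := hg _ h
  rw [smul_left_cancel g this] at h
  exact hx h

theorem not_reg4 (h : Q0 G Ω) (hn : 5 ≤ Fintype.card Ω) :
    ¬ Reg (St G (∅ : Set Ω)) (∅ : Set Ω)ᶜ := by
  rintro ⟨E, -, hnr, h1, h2⟩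
  have hu : ∀ x : Ω, x ∈ (∅ : Set Ω)ᶜ := fun x hx => hx
  obtain ⟨b, -⟩ := kreg_out (∅ : Finset Ω) (by simp; omega)
  obtain ⟨c, hc⟩ := kreg_out ({b} : Finset Ω) (by simp; omega)
  obtain ⟨e, he, rfl⟩ := h1 b (hu b) c (hu c)
  obtain ⟨d, hd⟩ := kreg_out ({b, e • b, e⁻¹ • b} : Finset Ω) (lt_of_le_of_lt Finset.card_le_three (by omega))
  obtain ⟨e', he', rfl⟩ := h1 b (hu b) d (hu d)
  obtain ⟨v, hv⟩ := kreg_out ({b, e • b, e' • b, e • e' • b} : Finset Ω) (lt_of_le_of_lt Finset.card_le_four (by omega))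
  simp only [Finset.mem_insert, Finset.mem_singleton, not_or] at hc hd hv
  have hA : e • e' • b ≠ b := fun h => hd.2.2 (by rw [eq_inv_smul_iff, h])
  have hB : e • e' • b ≠ e • b := fun h => hd.1 (smul_left_cancel e h)
  have hC : e • e' • b ≠ e' • b := fun h => hc (by rw [h2 _ (hu _) e he h, one_smul])
  obtain ⟨g, -, g1, g2, g3, g4⟩ := tr4_iff.1 h.tr b (e • b) (e' • b) (e • e' • b) b (e • b) (e' • b) v
    ⟨Ne.symm hc, Ne.symm hd.1, hA.symm, Ne.symm hd.2.1, hB.symm, hC.symm⟩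
    ⟨Ne.symm hc, Ne.symm hd.1, Ne.symm hv.1, Ne.symm hd.2.1, Ne.symm hv.2.1, Ne.symm hv.2.2.1⟩
    (Set.subset_univ _) (Set.subset_univ _)
  have hg : g ∈ St G (∅ : Set Ω) := fun x hx => hx.elim
  have c1 := mul_inv_eq_iff_eq_mul.1 (kreg_conj h2 (hu b) hnr hg he he g1 g2)
  apply hv.2.2.2
  rw [← g4, ← mul_smul, c1, mul_smul, g3]

theorem not_reg3 (h : Q0 G Ω) (a : Ω) (hn : 6 ≤ Fintype.card Ω) (he : Even (Fintype.card Ω)) :
    ¬ Reg (St G ({a} : Set Ω)) ({a} : Set Ω)ᶜ := by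
  rintro ⟨E, hE, hnr, h1, h2⟩
  have hi : Inv E ({a} : Set Ω)ᶜ := fun g hg x hx => inv_St_compl {a} g (hE hg) x hx
  obtain ⟨b, hb⟩ := kreg_out ({a} : Finset Ω) (by simp; omega)
  obtain ⟨c, hc⟩ := kreg_out ({a, b} : Finset Ω) (lt_of_le_of_lt Finset.card_le_two (by omega))
  simp only [Finset.mem_insert, Finset.mem_singleton, not_or] at hb hc
  have hb' : b ∈ ({a} : Set Ω)ᶜ := hb
  obtain ⟨e, heE, rfl⟩ := h1 b hb' c hc.1
  obtain ⟨v, hv⟩ := kreg_out ({a, b, e • b, e • e • b} : Finset Ω) (lt_of_le_of_lt Finset.card_le_four (by omega))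
  simp only [Finset.mem_insert, Finset.mem_singleton, not_or] at hv
  have hcard : Nat.card E = Fintype.card Ω - 1 := by
    rw [← reg_card' hi h1 h2 hb', Set.ncard_compl, Set.ncard_singleton, Nat.card_eq_fintype_card]
  have hA : e • e • b ≠ a := hi e heE _ hc.1
  have hB : e • e • b ≠ b := by
    intro h'
    have h3 : e * e = 1 := h2 b hb' _ (E.mul_mem heE heE) (by rw [mul_smul, h'])
    have h4 : e ^ Nat.card E = 1 := by
      have := pow_card_eq_one' (x := (⟨e, heE⟩ : E))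
      exact congrArg Subtype.val this
    obtain ⟨m, hm⟩ := he
    have h5 : Nat.card E = 2 * (m - 1) + 1 := by omega
    rw [h5, pow_succ, pow_mul, pow_two, h3, one_pow, one_mul] at h4
    exact hc.2 (by rw [h4, one_smul])
  have hC : e • e • b ≠ e • b := fun h => hc.2 (smul_left_cancel e h)
  obtain ⟨g, -, g1, g2, g3, g4⟩ := tr4_iff.1 h.tr a b (e • b) (e • e • b) a b (e • b) v
    ⟨Ne.symm hb, Ne.symm hc.1, hA.symm, Ne.symm hc.2, hB.symm, hC.symm⟩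
    ⟨Ne.symm hb, Ne.symm hc.1, Ne.symm hv.1, Ne.symm hc.2, Ne.symm hv.2.1, Ne.symm hv.2.2.1⟩
    (Set.subset_univ _) (Set.subset_univ _)
  have hg : g ∈ St G ({a} : Set Ω) := fun x hx => by rw [Set.mem_singleton_iff.1 hx, g1]
  have c1 := mul_inv_eq_iff_eq_mul.1 (kreg_conj h2 hb' hnr hg heE heE g2 g3)
  apply hv.2.2.2
  rw [← g4, ← mul_smul, c1, mul_smul, g3]

end Cfsg.Agent.Q4
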