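import Cfsg.Agent.Q4.KTr
import Cfsg.Agent.S0419

set_option autoImplicit false
set_option linter.unusedSectionVars false

namespace Cfsg.Agent.Q4

open Subgroup

variable {G : Type*} [Group G] [Finite G] {Ω : Type*} [Fintype Ω] [DecidableEq Ω] [MulAction G Ω]
variable {N N' U V E H T M A B L Q Q' R : Subgroup G} {Γ Δ Δ' S F : Set Ω} {g s t u w y z : G}
variable {x x' a b c d : Ω} {k l p q i n κ : ℕ}

/-- the action on the invariant set -/
def ksim_act (hi : Inv N Γ) : N →* Equiv.Perm Γ :=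
  MonoidHom.toHomPerm
    { toFun := fun g x => ⟨(g : G) • (x : Ω), hi g g.2 x x.2⟩
      map_one' := funext fun x => Subtype.ext (one_smul G (x : Ω))
      map_mul' := fun g h => funext fun x => Subtype.ext (mul_smul (g : G) (h : G) (x : Ω)) }

theorem ksim_apply (hi : Inv N Γ) (g : N) (x : Γ) : (ksim_act hi g x : Ω) = (g : G) • (x : Ω) := rfl

theorem ksim_one (hi : Inv N Γ) (g : N) : ksim_act hi g = 1 ↔ (g : G) ∈ St G Γ :=
  ⟨fun e x hx => congrArg (fun σ : Equiv.Perm Γ => (σ ⟨x, hx⟩ : Ω)) e,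
    fun e => Equiv.ext fun x => Subtype.ext (e x x.2)⟩

theorem ksim_mem (hi : Inv N Γ) (g m : N) (hm : (m : G) ∈ M) (e : ksim_act hi m = ksim_act hi g) :
    (g : G) ∈ M ⊔ (N ⊓ St G Γ) := by
  have : ((m⁻¹ * g : N) : G) ∈ St G Γ := (ksim_one hi _).1 (by rw [map_mul, map_inv, e, inv_mul_cancel])
  have k := mul_mem (mem_sup_left hm : (m : G) ∈ M ⊔ (N ⊓ St G Γ)) (mem_sup_right ⟨(m⁻¹ * g).2, this⟩)
  simpa using k

theorem ksim_normal (hn : Nr M N) : (M.subgroupOf N).Normal := ⟨fun m hm g => hn g g.2 m hm⟩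

theorem ksim_simple (hi : Inv N Γ) (hs : IsSimpleGroup (ksim_act hi).range) (hM : M ≤ N) (hn : Nr M N)
    (e : ¬ M ≤ St G Γ) : N ≤ M ⊔ (N ⊓ St G Γ) := by
  have := (ksim_normal hn).map (ksim_act hi).rangeRestrict (ksim_act hi).rangeRestrict_surjective
  rcases this.eq_bot_or_eq_top with k | k
  · refine absurd (fun m hm => (ksim_one hi ⟨m, hM hm⟩).1 ?_) e
    have : (ksim_act hi).rangeRestrict ⟨m, hM hm⟩ ∈ (M.subgroupOf N).map (ksim_act hi).rangeRestrict :=
      mem_map_of_mem _ hm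
    rw [k, mem_bot] at this
    exact congrArg Subtype.val this
  · intro g hg
    obtain ⟨m, hm, e⟩ : (ksim_act hi).rangeRestrict ⟨g, hg⟩ ∈ (M.subgroupOf N).map (ksim_act hi).rangeRestrict := by
      rw [k]; trivial
    exact ksim_mem hi ⟨g, hg⟩ m hm (congrArg Subtype.val e)

theorem simp12 (h : Tr 5 N Γ) (hi : Inv N Γ) (hm : Γ.ncard = 12)
    (hs : ∀ g ∈ N, 5 ≤ (Γ ∩ fx Ω g).ncard → Γ ⊆ fx Ω g) (hM : M ≤ N) (hn : Nr M N) (e : ¬ M ≤ St G Γ) :
    N ≤ M ⊔ (N ⊓ St G Γ) := by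
  have := Fintype.ofFinite Γ
  have : MulAction.IsMultiplyPretransitive (ksim_act hi).range Γ 5 :=
    MulAction.isMultiplyPretransitive_iff.2 fun x y => by
      obtain ⟨g, hg, k⟩ := h (fun i => x i) (fun i => y i) (Subtype.val_injective.comp x.injective)
        (Subtype.val_injective.comp y.injective) (fun i => (x i).2) fun i => (y i).2
      exact ⟨⟨_, ⟨g, hg⟩, rfl⟩, Function.Embedding.ext fun i => Subtype.ext (k i)⟩
  refine ksim_simple hi (S0419.result (by rw [← Nat.card_eq_fintype_card, Nat.card_coe_set_eq, hm])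
    (ksim_act hi).range fun x => ?_).1 hM hn e
  rw [eq_bot_iff]
  rintro ⟨_, g, rfl⟩ hg
  refine Subtype.ext ((ksim_one hi g).2 (hs g g.2 ?_))
  have k : ∀ i, (g : G) • (x i : Ω) = x i := fun i =>
    congrArg (fun f : Fin 5 ↪ Γ => (f i : Ω)) (MulAction.mem_stabilizer_iff.1 hg)
  have inj : Function.Injective fun i => (x i : Ω) := Subtype.val_injective.comp x.injective
  have c := Set.ncard_le_ncard (s := Set.range fun i => (x i : Ω)) (t := Γ ∩ fx Ω (g : G))
    (by rintro _ ⟨i, rfl⟩; exact ⟨(x i).2, k i⟩)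
  rwa [Set.ncard_range_of_injective inj, Nat.card_eq_fintype_card, Fintype.card_fin] at c

theorem ksim_lift (hi : Inv N Γ) [DecidablePred (· ∈ Γ)] (σ : Equiv.Perm Γ)
    (k : ∃ g ∈ N, ∀ x ∈ Γ, g • x = Equiv.Perm.ofSubtype σ x) : σ ∈ (ksim_act hi).range := by
  obtain ⟨g, hg, k⟩ := k
  exact ⟨⟨g, hg⟩, Equiv.ext fun x => Subtype.ext ((k x x.2).trans (Equiv.Perm.ofSubtype_apply_coe σ x))⟩

theorem simp8 (h : Alt N Γ) (hi : Inv N Γ) (he : Ev N Γ) (hm : 5 ≤ Γ.ncard)
    (hM : M ≤ N) (hn : Nr M N) (e : ¬ M ≤ St G Γ) : N ≤ M ⊔ (N ⊓ St G Γ) := by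
  classical
  have hc : 5 ≤ Nat.card Γ := by rwa [Nat.card_coe_set_eq]
  have l : alternatingGroup Γ ≤ (ksim_act hi).range := fun σ hσ => ksim_lift hi σ
    (h _ (fun x hx => Equiv.Perm.ofSubtype_apply_of_not_mem σ hx)
      (by rw [Equiv.Perm.mem_alternatingGroup, Equiv.Perm.sign_ofSubtype]; exact hσ))
  have r : (ksim_act hi).range = alternatingGroup Γ := by
    refine le_antisymm (fun τ hτ => ?_) l
    by_contra o
    have : Nontrivial Γ := Finite.one_lt_card_iff_nontrivial.1 (by omega)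
    obtain ⟨a, b, ab⟩ := exists_pair_ne Γ
    have o' : Equiv.Perm.sign τ = -1 := (Int.units_eq_one_or _).resolve_left o
    have m : Equiv.swap a b * τ ∈ alternatingGroup Γ := by
      rw [Equiv.Perm.mem_alternatingGroup, map_mul, Equiv.Perm.sign_swap ab, o']; simp
    obtain ⟨g, hg⟩ := (mul_mem_cancel_right hτ).1 (l m)
    have k : ∀ x : Γ, (g : G) • (x : Ω) = Equiv.swap a b x := fun x => by rw [← hg]; rfl
    have := he g g.2 fun x hx => by
      rw [k ⟨x, hx⟩, k, Equiv.swap_apply_self]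
    have q : Γ \ fx Ω (g : G) = {(a : Ω), (b : Ω)} := by
      ext x
      constructor
      · rintro ⟨hx, nx⟩
        by_contra c
        simp only [Set.mem_insert_iff, Set.mem_singleton_iff, not_or] at c
        refine nx ((k ⟨x, hx⟩).trans ?_)
        rw [Equiv.swap_apply_of_ne_of_ne (fun e => c.1 (congrArg Subtype.val e)) fun e => c.2 (congrArg Subtype.val e)]
      · rintro (rfl | rfl)
        · exact ⟨a.2, fun e => ab (Subtype.ext (by rw [mem_fx, k, Equiv.swap_apply_left] at e; exact e.symm))⟩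
        · exact ⟨b.2, fun e => ab (Subtype.ext (by rw [mem_fx, k, Equiv.swap_apply_right] at e; exact e))⟩
    rw [q, Set.ncard_pair fun e => ab (Subtype.ext e)] at this
    omega
  exact ksim_simple hi (r ▸ alternatingGroup.isSimpleGroup hc) hM hn e

theorem simp6 (h : Sym N Γ) (hi : Inv N Γ) (hm : 5 ≤ Γ.ncard) (hM : M ≤ N) (hn : Nr M N) (e : ¬ M ≤ St G Γ)
    (hg : g ∈ N) (h3 : g ^ 3 ∈ St G Γ) : g ∈ M ⊔ (N ⊓ St G Γ) := by
  classical
  have hc : 5 ≤ Nat.card Γ := by rwa [Nat.card_coe_set_eq]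
  have sj : Function.Surjective (ksim_act hi) := fun σ =>
    ksim_lift hi σ (h _ fun x hx => Equiv.Perm.ofSubtype_apply_of_not_mem σ hx)
  have := (ksim_normal hn).map (ksim_act hi) sj
  have : Nontrivial ((M.subgroupOf N).map (ksim_act hi)) := (nontrivial_iff_ne_bot _).2 fun k =>
    e fun m hm => (ksim_one hi ⟨m, hM hm⟩).1 (by
      have : ksim_act hi ⟨m, hM hm⟩ ∈ (M.subgroupOf N).map (ksim_act hi) := mem_map_of_mem _ hm
      rwa [k, mem_bot] at this)
  have l : alternatingGroup Γ ≤ (M.subgroupOf N).map (ksim_act hi) := Equiv.Perm.alternatingGroup_le_of_normal hc this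
  have c : ksim_act hi ⟨g, hg⟩ ^ 3 = 1 := by rw [← map_pow]; exact (ksim_one hi _).2 h3
  have ev : ksim_act hi ⟨g, hg⟩ ∈ alternatingGroup Γ := by
    rw [Equiv.Perm.mem_alternatingGroup]
    refine (Int.units_eq_one_or _).resolve_right fun o => ?_
    have := congrArg Equiv.Perm.sign c
    rw [map_pow, o, map_one] at this
    exact absurd this (by decide)
  obtain ⟨m, hm, k⟩ := l ev
  exact ksim_mem hi ⟨g, hg⟩ m hm k

end Cfsg.Agent.Q4
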