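-- project Q4 (notes/Q4.md): k-transitivity kit
import Cfsg.Agent.Q4.Defs

set_option autoImplicit false
set_option linter.unusedSectionVars false

namespace Cfsg.Agent.Q4

open Subgroup

variable {G : Type*} [Group G] [Finite G] {Ω : Type*} [Fintype Ω] [DecidableEq Ω] [MulAction G Ω]
variable {N N' U V E H T M A B L Q Q' R : Subgroup G} {Γ Δ Δ' S F : Set Ω} {g s t u w y z : G}
variable {x x' a b c d : Ω} {k l p q i n κ : ℕ}

theorem Tr.le (h : Tr k N Γ) (e : N ≤ N') : Tr k N' Γ := fun x y hx hy gx gy => by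
  obtain ⟨g, hg, h'⟩ := h x y hx hy gx gy
  exact ⟨g, e hg, h'⟩

theorem ktr_new (x : Fin k → Ω) (hk : k < Γ.ncard) : ∃ a ∈ Γ, a ∉ Set.range x := by
  by_contra hc
  push Not at hc
  have h1 : Γ.ncard ≤ (Set.range x).ncard := Set.ncard_le_ncard (fun a ha => hc a ha)
  have h2 : (Set.range x).ncard ≤ k := by
    rw [← Set.image_univ]
    refine (Set.ncard_image_le (Set.toFinite _)).trans ?_
    simp [Set.ncard_univ]
  omega

theorem ktr_step (h : Tr (k + 1) N Γ) (hk : k < Γ.ncard) : Tr k N Γ := fun x y hx hy gx gy => by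
  obtain ⟨a, ha, na⟩ := ktr_new x hk
  obtain ⟨b, hb, nb⟩ := ktr_new y hk
  obtain ⟨g, hg, h'⟩ := h (Fin.cons a x) (Fin.cons b y) (Fin.cons_injective_iff.2 ⟨na, hx⟩)
    (Fin.cons_injective_iff.2 ⟨nb, hy⟩) (fun i => Fin.cases ha gx i) (fun i => Fin.cases hb gy i)
  exact ⟨g, hg, fun i => by simpa using h' i.succ⟩

theorem Tr.mono (h : Tr k N Γ) (e : l ≤ k) (hk : k ≤ Γ.ncard) : Tr l N Γ := by
  induction k with
  | zero => obtain rfl : l = 0 := by omega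
            exact h
  | succ k ih =>
    rcases e.eq_or_lt with rfl | e'
    · exact h
    · exact ih (ktr_step h (by omega)) (by omega) (by omega)

theorem ktr_inj4 (h : D4 a b c d) : Function.Injective ![a, b, c, d] := by
  obtain ⟨h1, h2, h3, h4, h5, h6⟩ := h
  intro i j e
  fin_cases i <;> fin_cases j <;> simp_all [eq_comm]

theorem ktr_d4 {x : Fin 4 → Ω} (h : Function.Injective x) : D4 (x 0) (x 1) (x 2) (x 3) :=
  ⟨h.ne (by decide), h.ne (by decide), h.ne (by decide), h.ne (by decide), h.ne (by decide), h.ne (by decide)⟩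

theorem tr4_iff : Tr 4 N Γ ↔ ∀ a b c d a' b' c' d' : Ω, D4 a b c d → D4 a' b' c' d' →
    ({a, b, c, d} : Set Ω) ⊆ Γ → ({a', b', c', d'} : Set Ω) ⊆ Γ →
    ∃ g ∈ N, g • a = a' ∧ g • b = b' ∧ g • c = c' ∧ g • d = d' := by
  refine ⟨fun h a b c d a' b' c' d' h1 h2 s1 s2 => ?_, fun h x y hx hy gx gy => ?_⟩
  · obtain ⟨g, hg, e⟩ := h ![a, b, c, d] ![a', b', c', d'] (ktr_inj4 h1) (ktr_inj4 h2)
      (fun i => s1 (by fin_cases i <;> simp)) (fun i => s2 (by fin_cases i <;> simp))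
    exact ⟨g, hg, e 0, e 1, e 2, e 3⟩
  · obtain ⟨g, hg, e0, e1, e2, e3⟩ := h (x 0) (x 1) (x 2) (x 3) (y 0) (y 1) (y 2) (y 3) (ktr_d4 hx) (ktr_d4 hy)
      (by rintro _ (rfl | rfl | rfl | rfl) <;> exact gx _) (by rintro _ (rfl | rfl | rfl | rfl) <;> exact gy _)
    exact ⟨g, hg, fun i => by fin_cases i <;> assumption⟩

theorem ktr_inj5 (h : D4 a b c d) (hx : x ∉ ({a, b, c, d} : Set Ω)) : Function.Injective ![x, a, b, c, d] := by
  refine Fin.cons_injective_iff.2 ⟨?_, ktr_inj4 h⟩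
  rintro ⟨i, e⟩
  apply hx
  rw [← e]
  fin_cases i <;> simp

theorem tr5_iff : Tr 5 N Γ ↔ ∀ a b c d x a' b' c' d' x' : Ω, D4 a b c d → D4 a' b' c' d' →
    ({a, b, c, d} : Set Ω) ⊆ Γ → ({a', b', c', d'} : Set Ω) ⊆ Γ → x ∈ Γ → x' ∈ Γ →
    x ∉ ({a, b, c, d} : Set Ω) → x' ∉ ({a', b', c', d'} : Set Ω) →
    ∃ g ∈ N, g • a = a' ∧ g • b = b' ∧ g • c = c' ∧ g • d = d' ∧ g • x = x' := by
  refine ⟨fun h a b c d x a' b' c' d' x' h1 h2 s1 s2 m1 m2 n1 n2 => ?_, fun h x y hx hy gx gy => ?_⟩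
  · obtain ⟨g, hg, e⟩ := h ![x, a, b, c, d] ![x', a', b', c', d'] (ktr_inj5 h1 n1) (ktr_inj5 h2 n2)
      (fun i => by
        fin_cases i
        · exact m1
        all_goals exact s1 (by simp))
      (fun i => by
        fin_cases i
        · exact m2
        all_goals exact s2 (by simp))
    exact ⟨g, hg, e 1, e 2, e 3, e 4, e 0⟩
  · have D : ∀ {x : Fin 5 → Ω}, Function.Injective x → D4 (x 0) (x 1) (x 2) (x 3) ∧
        x 4 ∉ ({x 0, x 1, x 2, x 3} : Set Ω) := fun {x} h =>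
      ⟨⟨h.ne (by decide), h.ne (by decide), h.ne (by decide), h.ne (by decide), h.ne (by decide),
        h.ne (by decide)⟩, by rintro (e | e | e | e) <;> exact absurd (h e) (by decide)⟩
    obtain ⟨g, hg, e0, e1, e2, e3, e4⟩ := h (x 0) (x 1) (x 2) (x 3) (x 4) (y 0) (y 1) (y 2) (y 3) (y 4)
      (D hx).1 (D hy).1 (by rintro _ (rfl | rfl | rfl | rfl) <;> exact gx _)
      (by rintro _ (rfl | rfl | rfl | rfl) <;> exact gy _) (gx _) (gy _) (D hx).2 (D hy).2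
    exact ⟨g, hg, fun i => by fin_cases i <;> assumption⟩

theorem tr2_iff : Tr 2 N Γ ↔ ∀ a ∈ Γ, ∀ b ∈ Γ, ∀ a' ∈ Γ, ∀ b' ∈ Γ, a ≠ b → a' ≠ b' →
    ∃ g ∈ N, g • a = a' ∧ g • b = b' := by
  have I : ∀ {a b : Ω}, a ≠ b → Function.Injective ![a, b] := fun {a b} h i j e => by
    fin_cases i <;> fin_cases j <;> simp_all [eq_comm]
  refine ⟨fun h a ha b hb a' ha' b' hb' h1 h2 => ?_, fun h x y hx hy gx gy => ?_⟩
  · obtain ⟨g, hg, e⟩ := h ![a, b] ![a', b'] (I h1) (I h2) (fun i => by fin_cases i <;> assumption)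
      (fun i => by fin_cases i <;> assumption)
    exact ⟨g, hg, e 0, e 1⟩
  · obtain ⟨g, hg, e0, e1⟩ := h (x 0) (gx _) (x 1) (gx _) (y 0) (gy _) (y 1) (gy _) (hx.ne (by decide))
      (hy.ne (by decide))
    exact ⟨g, hg, fun i => by fin_cases i <;> assumption⟩

theorem Tr.set4 (h : Tr 4 N Γ) (hΔ : Δ ⊆ Γ) (hΔ' : Δ' ⊆ Γ) (e : Δ.ncard = 4) (e' : Δ'.ncard = 4) :
    ∃ g ∈ N, ∀ x, g • x ∈ Δ' ↔ x ∈ Δ := by
  obtain ⟨a, b, c, d, h1, rfl⟩ := exists_D4 e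
  obtain ⟨a', b', c', d', h2, rfl⟩ := exists_D4 e'
  obtain ⟨g, hg, rfl, rfl, rfl, rfl⟩ := tr4_iff.1 h a b c d a' b' c' d' h1 h2 hΔ hΔ'
  exact ⟨g, hg, fun x => by simp⟩

theorem ktr_enum (S : Set Ω) : ∃ f : Fin S.ncard → Ω, Function.Injective f ∧ Set.range f = S := by
  obtain ⟨n, f, hf, e⟩ := S.toFinite.fin_param
  have : S.ncard = n := by rw [← e, Set.ncard_range_of_injective hf]; simp
  subst this
  exact ⟨f, hf, e⟩

theorem Tr.st (h : Tr (k + S.ncard) N Γ) (hS : S ⊆ Γ) : Tr k (N ⊓ St G S) (Γ \ S) := fun x y hx hy gx gy => by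
  obtain ⟨f, hf, e⟩ := ktr_enum S
  have fS : ∀ j, f j ∈ S := fun j => e ▸ Set.mem_range_self j
  have I : ∀ {x : Fin k → Ω}, Function.Injective x → (∀ i, x i ∈ Γ \ S) →
      Function.Injective (Fin.append x f) ∧ ∀ i, Fin.append x f i ∈ Γ := fun {x} hx gx =>
    ⟨Fin.append_injective_iff.2 ⟨hx, hf, fun i j e' => (gx i).2 (e' ▸ fS j)⟩,
      fun i => Fin.addCases (fun i => by rw [Fin.append_left]; exact (gx i).1)
        (fun j => by rw [Fin.append_right]; exact hS (fS j)) i⟩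
  obtain ⟨g, hg, h'⟩ := h _ _ (I hx gx).1 (I hy gy).1 (I hx gx).2 (I hy gy).2
  refine ⟨g, ⟨hg, fun s hs => ?_⟩, fun i => ?_⟩
  · rw [← e] at hs
    obtain ⟨j, rfl⟩ := hs
    simpa [Fin.append_right] using h' (Fin.natAdd k j)
  · simpa [Fin.append_left] using h' (Fin.castAdd _ i)

theorem ktr_index (h : Tr k N Γ) (hi : Inv N Γ) (hΔ : Δ ⊆ Γ) (e : Δ.ncard = k) :
    ((St G Δ).subgroupOf N).index = Γ.ncard.descFactorial k := by
  subst e
  obtain ⟨f, hf, e⟩ := ktr_enum Δ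
  have fS : ∀ j, f j ∈ Γ := fun j => hΔ (e ▸ Set.mem_range_self j)
  have h1 : (St G Δ).subgroupOf N = MulAction.stabilizer N f := by
    ext g
    rw [Subgroup.mem_subgroupOf, MulAction.mem_stabilizer_iff, mem_St, funext_iff]
    constructor
    · intro h' j
      exact h' _ (e ▸ Set.mem_range_self j)
    · intro h' s hs
      rw [← e] at hs
      obtain ⟨j, rfl⟩ := hs
      exact h' j
  have h2 : MulAction.orbit N f = Set.range fun (φ : Fin Δ.ncard ↪ Γ) (j : Fin Δ.ncard) => (φ j : Ω) := by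
    ext y
    constructor
    · rintro ⟨g, rfl⟩
      exact ⟨⟨fun j => ⟨(g : G) • f j, hi g g.2 _ (fS j)⟩, fun i j e' =>
        hf (smul_left_cancel (g : G) (congrArg Subtype.val e'))⟩, rfl⟩
    · rintro ⟨φ, rfl⟩
      obtain ⟨g, hg, h'⟩ := h f (fun j => (φ j : Ω)) hf (Subtype.val_injective.comp φ.injective) fS
        fun j => (φ j).2
      exact ⟨⟨g, hg⟩, funext h'⟩
  rw [h1, MulAction.index_stabilizer, h2, Set.ncard_range_of_injective]
  · classical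
    rw [Nat.card_eq_fintype_card, Fintype.card_embedding_eq, Fintype.card_fin, ← Nat.card_eq_fintype_card,
      Nat.card_coe_set_eq]
  · intro φ ψ e'
    ext j
    exact congrFun e' j

theorem Tr.card (h : Tr k N Γ) (hi : Inv N Γ) (hΔ : Δ ⊆ Γ) (e : Δ.ncard = k) :
    Nat.card N = Γ.ncard.descFactorial k * Nat.card ↥(N ⊓ St G Δ) := by
  rw [← ktr_index h hi hΔ e, ← ((St G Δ).subgroupOf N).index_mul_card, ← Subgroup.inf_subgroupOf_left,
    Nat.card_congr (Subgroup.subgroupOfEquivOfLe inf_le_left).toEquiv]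

theorem ktr_last (K : Subgroup G) (i : ℕ) (h1 : g ^ p ^ i ∈ K) (h2 : g ∉ K) :
    ∃ j, g ^ p ^ j ∉ K ∧ (g ^ p ^ j) ^ p ∈ K := by
  induction i with
  | zero => exact absurd (by simpa using h1) h2
  | succ i ih =>
    by_cases h3 : g ^ p ^ i ∈ K
    · exact ih h3
    · exact ⟨i, h3, by rwa [← pow_mul, ← pow_succ]⟩

theorem Tr.prime (h : Tr k N Γ) (hi : Inv N Γ) (hk : k ≤ Γ.ncard) (hp : p.Prime)
    (e : p ∣ Γ.ncard.descFactorial k) :
    ∃ g ∈ N, (∃ i : ℕ, g ^ p ^ i = 1) ∧ (∃ x ∈ Γ, g • x ≠ x) ∧ ∀ x ∈ Γ, g ^ p • x = x := by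
  have := Fact.mk hp
  obtain ⟨Δ, hΔ, e'⟩ := Set.exists_subset_card_eq hk
  obtain ⟨P⟩ : Nonempty (Sylow p N) := inferInstance
  have h1 : ¬ (P : Subgroup N) ≤ (St G Δ).subgroupOf N := fun hc =>
    P.not_dvd_index ((ktr_index h hi hΔ e' ▸ e).trans (Subgroup.index_dvd_of_le hc))
  obtain ⟨g, hg, ng⟩ := SetLike.not_le_iff_exists.1 h1
  obtain ⟨i, hi'⟩ := P.2 ⟨g, hg⟩
  have h2 : (g : G) ^ p ^ i = 1 := congrArg (fun z : P => ((z : N) : G)) hi'
  obtain ⟨j, n1, n2⟩ := ktr_last (St G Γ) i (h2 ▸ one_mem _) fun hc => ng (St_anti hΔ hc)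
  refine ⟨_, N.pow_mem g.2 (p ^ j), ⟨i, ?_⟩, ?_, n2⟩
  · rw [← pow_mul, mul_comm, pow_mul, h2, one_pow]
  · by_contra hc
    push Not at hc
    exact n1 hc

end Cfsg.Agent.Q4
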