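import Cfsg.Agent.Q4.KTr
import Cfsg.Agent.Q4.KFix
import Cfsg.Agent.S0743

set_option autoImplicit false
set_option linter.unusedSectionVars false

namespace Cfsg.Agent.Q4

open Subgroup

variable {G : Type*} [Group G] [Finite G] {Ω : Type*} [Fintype Ω] [DecidableEq Ω] [MulAction G Ω]
variable {N N' U V E H T M A B L Q Q' R : Subgroup G} {Γ Δ Δ' S F : Set Ω} {g s t u w y z : G}
variable {x x' a b c d : Ω} {k l p q i n κ : ℕ}

theorem witt (h : Tr 4 (⊤ : Subgroup G) (Set.univ : Set Ω)) (hΔ : Δ.ncard = 4) (hU : U ≤ St G Δ)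
    (hc : ∀ g : G, (∀ u ∈ U, g * u * g⁻¹ ∈ St G Δ) →
      ∃ r ∈ St G Δ, ∀ u ∈ U, r * (g * u * g⁻¹) * r⁻¹ ∈ U) : Tr 4 (Nm U) (Fx Ω U) := by
  have hc4 : Nat.card Δ = 4 := by rw [Nat.card_coe_set_eq]; exact hΔ
  let e : Δ ≃ Fin 4 := Finite.equivFinOfCardEq hc4
  let x₀ : Fin 4 → Ω := fun i => (e.symm i : Ω)
  have hx₀ : Function.Injective x₀ := Subtype.val_injective.comp e.symm.injective
  have key : ∀ x : Fin 4 → Ω, Function.Injective x → (∀ i, x i ∈ Fx Ω U) →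
      ∃ n ∈ Nm U, ∀ i, n • x₀ i = x i := by
    intro x hx hxU
    obtain ⟨g₀, -, hg₀⟩ := h x₀ x hx₀ hx (fun _ => trivial) (fun _ => trivial)
    obtain ⟨r, hr, hrU⟩ := hc g₀⁻¹ (fun u hu z hz => by
      have : z = x₀ (e ⟨z, hz⟩) := by simp [x₀]
      rw [this, inv_inv, mul_smul, mul_smul, hg₀, hxU _ u hu, inv_smul_eq_iff, hg₀])
    have hn : r * g₀⁻¹ ∈ Nm U := Subgroup.mem_normalizer_fintype (S := (U : Set G)) (fun u hu => by
      have := hrU u hu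
      have e2 : r * g₀⁻¹ * u * (r * g₀⁻¹)⁻¹ = r * (g₀⁻¹ * u * g₀⁻¹⁻¹) * r⁻¹ := by group
      rw [e2]; exact this)
    refine ⟨(r * g₀⁻¹)⁻¹, (Nm U).inv_mem hn, fun i => ?_⟩
    rw [mul_inv_rev, inv_inv, mul_smul, (St G Δ).inv_mem hr _ (e.symm i).2, hg₀]
  intro x y hx hy hxU hyU
  obtain ⟨n₁, h₁, e₁⟩ := key x hx hxU
  obtain ⟨n₂, h₂, e₂⟩ := key y hy hyU
  refine ⟨n₂ * n₁⁻¹, (Nm U).mul_mem h₂ ((Nm U).inv_mem h₁), fun i => ?_⟩
  rw [mul_smul, ← e₁, inv_smul_smul, e₂]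

theorem Fx_zpowers (g : G) : Fx Ω (zpowers g) = fx Ω g := by
  ext x
  refine ⟨fun h => h g (mem_zpowers g), fun h u hu => ?_⟩
  have : zpowers g ≤ MulAction.stabilizer G x := zpowers_le.2 h
  exact this hu

/-- the action of `N` on an invariant set -/
def wittAct (hi : Inv N Γ) : MulAction N Γ where
  smul n z := ⟨(n : G) • (z : Ω), hi _ n.2 _ z.2⟩
  one_smul z := Subtype.ext (one_smul G (z : Ω))
  mul_smul m n z := Subtype.ext (mul_smul (m : G) (n : G) (z : Ω))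

theorem gleason (hi : Inv N Γ) (h5 : 5 ≤ Γ.ncard)
    (h : ∀ Δ ⊆ Γ, Δ.ncard = 4 → ∃ R ≤ N, (∀ u ∈ R, Two u) ∧ Γ ∩ Fx Ω R = Δ) : Tr 4 N Γ := by
  classical
  letI := wittAct hi
  have hs : ∀ (n : N) (z : Γ), ((n • z : Γ) : Ω) = (n : G) • (z : Ω) := fun _ _ => rfl
  let φ : N →* Equiv.Perm Γ := MulAction.toPermHom N Γ
  have hcard : 4 < Fintype.card Γ := by
    rw [← Nat.card_eq_fintype_card, Nat.card_coe_set_eq]; omega
  have hT := Cfsg.Agent.S0743.result φ.range Nat.prime_two (by norm_num : 1 ≤ 4) hcard (by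
    intro s hs4
    obtain ⟨R, hRN, hR2, hRF⟩ := h (Subtype.val '' (s : Set Γ)) (by
      rintro _ ⟨z, -, rfl⟩; exact z.2) (by
      rw [Set.ncard_image_of_injective _ Subtype.val_injective, Set.ncard_coe_finset, hs4])
    refine ⟨(R.subgroupOf N).map φ.rangeRestrict, ?_, ?_⟩
    · apply IsPGroup.map
      exact (two_iff.1 hR2).of_injective (Subgroup.subgroupOfEquivOfLe hRN).toMonoidHom
        (Subgroup.subgroupOfEquivOfLe hRN).injective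
    · ext z
      rw [MulAction.mem_fixedPoints]
      constructor
      · intro hz
        have : (z : Ω) ∈ Γ ∩ Fx Ω R := ⟨z.2, fun u hu => by
          have := hz ⟨φ.rangeRestrict ⟨u, hRN hu⟩, Subgroup.mem_map_of_mem _ hu⟩
          exact congrArg Subtype.val this⟩
        rw [hRF] at this
        obtain ⟨z', hz', e⟩ := this
        rwa [← Subtype.ext e]
      · rintro hz ⟨_, u, hu, rfl⟩
        have : (z : Ω) ∈ Γ ∩ Fx Ω R := by rw [hRF]; exact ⟨z, hz, rfl⟩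
        exact Subtype.ext (this.2 u hu))
  intro x y hx hy hxΓ hyΓ
  let x' : Fin 4 ↪ Γ := ⟨fun i => ⟨x i, hxΓ i⟩, fun i j e => hx (congrArg Subtype.val e)⟩
  let y' : Fin 4 ↪ Γ := ⟨fun i => ⟨y i, hyΓ i⟩, fun i j e => hy (congrArg Subtype.val e)⟩
  obtain ⟨⟨_, n, rfl⟩, e⟩ := hT.exists_smul_eq x' y'
  refine ⟨n, n.2, fun i => ?_⟩
  exact congrArg Subtype.val (DFunLike.congr_fun e i)

theorem step (hQ : ∀ u ∈ Q, Two u) (hΓ : Fx Ω Q ≠ Set.univ) :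
    ∃ R ≤ Q, ∃ t ∈ Q, t ∈ Nm R ∧ t * t ∈ R ∧ Fx Ω R ∩ fx Ω t = Fx Ω Q ∧ Fx Ω R ≠ Fx Ω Q := by
  classical
  haveI : Fact (Nat.Prime 2) := ⟨Nat.prime_two⟩
  obtain ⟨R, ⟨hRQ, hRF⟩, hmax⟩ := (Set.toFinite {R : Subgroup G | R ≤ Q ∧ Fx Ω R ≠ Fx Ω Q}).exists_maximal
    ⟨⊥, bot_le, by rw [Fx_bot]; exact hΓ.symm⟩
  have hp : IsPGroup 2 Q := two_iff.1 hQ
  haveI := hp.isNilpotent
  have hlt : R.subgroupOf Q < ⊤ := by
    rw [lt_top_iff_ne_top, Ne, Subgroup.subgroupOf_eq_top]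
    intro e
    exact hRF (by rw [le_antisymm hRQ e])
  obtain ⟨v, hv, hvR⟩ := SetLike.exists_of_lt (normalizerCondition_of_isNilpotent _ hlt)
  have hvN : (v : G) ∈ Nm R := Subgroup.mem_normalizer_fintype (S := (R : Set G)) (fun u hu =>
    (Subgroup.mem_normalizer_iff.1 hv ⟨u, hRQ hu⟩).1 hu)
  have hex : ∃ j : ℕ, (v : G) ^ 2 ^ j ∈ R := by
    obtain ⟨j, hj⟩ := hQ v v.2
    exact ⟨j, by rw [hj]; exact R.one_mem⟩
  have h0 : Nat.find hex ≠ 0 := fun e => by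
    have := Nat.find_spec hex
    rw [e, pow_zero, pow_one] at this
    exact hvR this
  obtain ⟨j, hj⟩ := Nat.exists_eq_succ_of_ne_zero h0
  have h1 := Nat.find_spec hex
  have h2 := Nat.find_min hex (m := j) (by omega)
  rw [hj] at h1
  have htQ : (v : G) ^ 2 ^ j ∈ Q := Q.pow_mem v.2 _
  refine ⟨R, hRQ, (v : G) ^ 2 ^ j, htQ, (Nm R).pow_mem hvN _, ?_, ?_, hRF⟩
  · rwa [← pow_add, ← two_mul, mul_comm, ← pow_succ]
  · have hle : R ⊔ zpowers ((v : G) ^ 2 ^ j) ≤ Q := sup_le hRQ (zpowers_le.2 htQ)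
    have hF : Fx Ω (R ⊔ zpowers ((v : G) ^ 2 ^ j)) = Fx Ω Q := by
      by_contra e
      exact h2 (hmax ⟨hle, e⟩ le_sup_left (Subgroup.mem_sup_right (mem_zpowers _)))
    rw [← hF]
    ext z
    constructor
    · rintro ⟨z1, z2⟩ u hu
      have : R ⊔ zpowers ((v : G) ^ 2 ^ j) ≤ MulAction.stabilizer G z :=
        sup_le (fun r hr => z1 r hr) (zpowers_le.2 z2)
      exact this hu
    · intro hz
      exact ⟨Fx_anti le_sup_left hz, hz _ (Subgroup.mem_sup_right (mem_zpowers _))⟩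

end Cfsg.Agent.Q4
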